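import Cfsg.Agent.H515.EPO.KTwo
import Cfsg.Agent.H470.EPO.OwnT

/-!
# S5745, OWN characteristic: there is only one factor (helper515)

* `k_eq_one_S` : `EPS`-form, any parabolic system;
* `k_eq_one_R1` : `T` of rank one (`PSL₂`, `PSU₃`, `Sz`, `²G₂`): `k = 1`.
-/

set_option autoImplicit false
set_option linter.unusedSectionVars false

namespace Cfsg.Agent.H515.EPO.KTwo

open Cfsg.Agent.H284 Cfsg.Agent.H209.EPX Cfsg.Agent.H737.EPO Cfsg.Agent.H470.EPO Cfsg.Agent.KFacts.RgdFilt

/-- a nonabelian simple group has no subgroup of index three -/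
theorem index_ne_three {T : Type*} [Group T] [Finite T] [IsSimpleGroup T] (hT : ∃ a b : T, a * b ≠ b * a)
    (B : Subgroup T) : B.index ≠ 3 := by
  intro h3
  have hB : B ≠ ⊤ := by
    rintro rfl
    rw [Subgroup.index_top] at h3
    omega
  have hcore : B.normalCore = ⊥ := by
    rcases (inferInstance : B.normalCore.Normal).eq_bot_or_eq_top with h1 | h1
    · exact h1
    · exact absurd (top_le_iff.1 (h1 ▸ B.normalCore_le)) hB
  have hinj : Function.Injective (MulAction.toPermHom T (T ⧸ B)) := by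
    rw [← MonoidHom.ker_eq_bot_iff, ← Subgroup.normalCore_eq_ker]
    exact hcore
  have h4 : Nat.card T ∣ Nat.card (Equiv.Perm (T ⧸ B)) := Subgroup.card_dvd_of_injective _ hinj
  have h5 : Nat.card (Equiv.Perm (T ⧸ B)) = 6 := by
    rw [Nat.card_perm]
    have : Nat.card (T ⧸ B) = 3 := h3
    rw [this]
    rfl
  rw [h5] at h4
  have h60 : Squarefree 6 := by
    rw [show 6 = 2 * 3 from rfl, Nat.squarefree_mul (by norm_num)]
    exact ⟨Nat.prime_two.squarefree, Nat.prime_three.squarefree⟩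
  have h6 : Squarefree (Nat.card T) := Squarefree.squarefree_of_dvd h4 h60
  have h7 : IsZGroup T := IsZGroup.of_squarefree h6
  have h8 : commutator T < ⊤ := IsZGroup.commutator_lt T
  have h9 : commutator T = ⊥ := by
    rcases (inferInstance : (commutator T).Normal).eq_bot_or_eq_top with h1 | h1
    · exact h1
    · exact absurd h1 h8.ne
  obtain ⟨a, b, hab⟩ := hT
  apply hab
  have h10 : a * b * a⁻¹ * b⁻¹ ∈ commutator T :=
    Subgroup.commutator_mem_commutator (Subgroup.mem_top a) (Subgroup.mem_top b)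
  rw [h9, Subgroup.mem_bot] at h10
  have h11 := mul_inv_eq_one.1 h10
  exact mul_inv_eq_iff_eq_mul.1 h11

section

variable {G : Type*} [Group G] [Finite G] {H N : Subgroup G} {T : Type} [Group T] [Finite T] {k : ℕ}
  {e : N ≃* (Fin k → T)} (h : EPS H N e) {p : ℕ} [Fact p.Prime]
  {Y : Type*} [Group Y] [Finite Y] [IsSimpleGroup Y] (hY : HasFilt p Y) (hYn : ∃ a b : Y, a * b ≠ b * a)
  {j : Y →* G} (hj : Function.Injective j) (hn : j.range.Normal) (hNj : N ≤ j.range)

include h hY hYn hj hn hNj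

/-- **only one factor**, `EPS`-form -/
theorem k_eq_one_S {I : Type*} [Nonempty I] {S : PSys T p I} (hS : Rk S)
    (hne : p = 2 → (∀ j : I, (S.V {j}).relIndex (S.V ∅) = 2) → ∀ s, 1 + (S.P ∅).index ≠ 2 ^ s) : k = 1 := by
  have := h.simple
  obtain ⟨P, -, hP⟩ := exists_sylIn (p := p) (H := H) (K := ⊥) bot_le IsPGroup.of_bot
  obtain ⟨e', hPN⟩ := exists_std S e h.nrm h.le hP
  exact k_eq_one e' h.nab hS h.ep h.toMinN h.pos hP hPN
    (fun J hJ => dq_of h hY hYn hj hn hNj _ e' J hJ) hne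

/-- **only one factor**, `T` of rank one -/
theorem k_eq_one_R1 [IsSimpleGroup T] (D : R1 p T) : k = 1 := by
  apply k_eq_one_S h hY hYn hj hn hNj D.rk
  intro _ h1 s _
  have h2 := P_index e D.rk ⟨0, h.pos⟩ ()
  rw [h1 ()] at h2
  have h3 : (D.psys).P {()} = ⊤ := by
    rw [← (D.psys).P_univ]
    congr 1
    ext x
    simp
  rw [h3, Subgroup.relIndex_top_right] at h2
  exact index_ne_three h.nab _ h2

end

end Cfsg.Agent.H515.EPO.KTwo
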