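import Cfsg.Agent.H284.EPO.TThree

/-!
# S5745, OWN characteristic, `q = 2`: the indices for type `A` (helper515)

* `index_A` : `|Y : P_{I - i}| = 2 ^ (m + 1) - 1`, `i` an end node of type `A_m`;
* `index_A3` : `|Y : P_{I - i}| = 35`, `i` the middle node of `A₃`.
-/

set_option autoImplicit false
set_option linter.unusedSectionVars false

namespace Cfsg.Agent.H515.EPO.IdxA

open CoxeterSystem Cfsg.Agent.ChevalleyStructure.CoxeterGeom Cfsg.Agent.Tits.Roots Cfsg.Agent.Tits.Core
  Cfsg.Agent.Tits.RootComb Cfsg.Agent.Tits.Exchange Cfsg.Agent.Nodes.Reps Cfsg.Agent.Nodes.BNOf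
  Cfsg.Agent.Nodes.StabComb Cfsg.Agent.Nodes.Bruhat Cfsg.Agent.Nodes.OppDec Cfsg.Agent.Nodes.LeviDec
  Cfsg.Agent.Nodes.Coroot Cfsg.Agent.KFacts.RgdPar Cfsg.Agent.KFacts.RgdSL Cfsg.Agent.KFacts.RgdVJ
  Cfsg.Agent.KFacts.RgdCharP Cfsg.Agent.H35.Poin Cfsg.Agent.H965.XZ Cfsg.Agent.H284.TThree

theorem sum2 (m : ℕ) : ∑ t ∈ Finset.range m, 2 ^ t + 1 = 2 ^ m := by
  induction m with
  | zero => rfl
  | succ m ih =>
    rw [Finset.sum_range_succ, pow_succ]
    omega

section

variable {I W Y : Type*} [Fintype I] [DecidableEq I] [Group W] [Group Y] {M : CoxeterMatrix I}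
  {cs : CoxeterSystem M W} {A : I → I → ℤ} {h : IsCartan M A} {p : ℕ} {T : Subgroup Y} {n : I → Y}
  {X : (I → ℤ) → Subgroup Y} (R : RGD cs h p T n X)

include R

theorem PJ_univ_top (hG : GG cs h T X = ⊤) : PJ cs h T X Set.univ = ⊤ := by
  rw [eq_top_iff, ← hG, ← LJ_univ]
  exact LJ_le_PJ

/-- the first node of a path -/
theorem index_apath [Finite W] [Finite Y] (hG : GG cs h T X = ⊤) {c : ℕ → I} {m y : ℕ}
    (hP : APath A Set.univ c (m + 1)) (hy : ∀ t < m + 1, Nat.card (X (sr (c t))) = y) :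
    (PJ cs h T X {c 0}ᶜ).index = ∑ t ∈ Finset.range (m + 2), y ^ t := by
  have h1 := card_PJ_path R hP hy
  have hP' : APath A {c 0}ᶜ (fun t => c (t + 1)) m := by
    refine ⟨fun t ht => ?_, fun t ht => hP.adj (t + 1) (by omega), fun s t h1 h2 => hP.far (s + 1) (t + 1) (by omega)
      (by omega), fun j hj hc t ht => ?_, fun s hs t ht e => ?_⟩
    · rw [Set.mem_compl_singleton_iff]
      intro e
      have := hP.inj (t + 1) (by omega) 0 (by omega) e
      omega
    · refine hP.out j (Set.mem_univ _) (fun s hs e => ?_) (t + 1) (by omega)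
      rcases Nat.eq_zero_or_pos s with rfl | h0
      · exact hj e.symm
      · apply hc (s - 1) (by omega)
        rw [← e]
        congr 1
        omega
    · have := hP.inj (s + 1) (by omega) (t + 1) (by omega) e
      omega
  have h2 := card_PJ_path R hP' (fun t ht => hy (t + 1) (by omega))
  have h3 : (Set.univ : Set I) \ {j | ∃ t < m + 1, c t = j} = {c 0}ᶜ \ {j | ∃ t < m, c (t + 1) = j} := by
    ext j
    simp only [Set.mem_sdiff, Set.mem_univ, true_and, Set.mem_setOf_eq, Set.mem_compl_singleton_iff, not_exists,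
      not_and]
    constructor
    · intro h4
      exact ⟨fun e => h4 0 (by omega) e.symm, fun t ht => h4 (t + 1) (by omega)⟩
    · rintro ⟨h4, h5⟩ t ht e
      rcases Nat.eq_zero_or_pos t with rfl | h0
      · exact h4 e.symm
      · apply h5 (t - 1) (by omega)
        rw [← e]
        congr 1
        omega
  rw [h3, Finset.prod_range_succ] at h1
  have h4 := relIndex_of_card (cs := cs) (h := h) (T := T) (X := X) (K := Set.univ) (L := {c 0}ᶜ)
    (Set.subset_univ _) (r := ∑ t ∈ Finset.range (m + 2), y ^ t) (by rw [h1, h2]; ring)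
  rwa [PJ_univ_top R hG, Subgroup.relIndex_top_right] at h4

end

section Fam

variable {m : ℕ} {W Y : Type*} [Group W] [Finite W] [Group Y] [Finite Y] {p : ℕ} {A : Fin m → Fin m → ℤ}
  {T : Subgroup Y} {n : Fin m → Y} {X : (Fin m → ℤ) → Subgroup Y} {i : Fin m}

/-- **an end node of `A_m`** -/
theorem index_A {cs : CoxeterSystem (Cfsg.Agent.LieRecognition.BNCox.cA m) W}
    {h : IsCartan (Cfsg.Agent.LieRecognition.BNCox.cA m) A} (R : RGD cs h p T n X) (hG : GG cs h T X = ⊤)
    (hq : ∀ j, Nat.card (X (sr j)) = 2) (hi : (i : ℕ) = 0 ∨ (i : ℕ) + 1 = m) :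
    (PJ cs h T X {i}ᶜ).index + 1 = 2 ^ (m + 1) := by
  have hm : 0 < m := by have := i.2; omega
  have e3 : ∀ a b : Fin m, (a : ℕ) + 1 = b → Cfsg.Agent.LieRecognition.BNCox.cA m a b = 3 := by
    intro a b hab
    rw [Cfsg.Agent.LieRecognition.BNCox.cA_apply]
    show (if (a : ℕ) = b then 1 else if (a : ℕ) + 1 = b ∨ (b : ℕ) + 1 = a then 3 else 2) = 3
    rw [if_neg (by omega), if_pos (Or.inl hab)]
  have e2 : ∀ a b : Fin m, (a : ℕ) + 1 < b → Cfsg.Agent.LieRecognition.BNCox.cA m a b = 2 := by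
    intro a b hab
    rw [Cfsg.Agent.LieRecognition.BNCox.cA_apply]
    show (if (a : ℕ) = b then 1 else if (a : ℕ) + 1 = b ∨ (b : ℕ) + 1 = a then 3 else 2) = 2
    rw [if_neg (by omega), if_neg (by omega)]
  obtain ⟨m, rfl⟩ : ∃ k, m = k + 1 := ⟨m - 1, by omega⟩
  rcases hi with hi | hi
  · let c : ℕ → Fin (m + 1) := fun t => if ht : t < m + 1 then ⟨t, ht⟩ else 0
    have hv : ∀ t < m + 1, ((c t : Fin (m + 1)) : ℕ) = t := fun t ht => by simp only [c, dif_pos ht]
    have hP : APath A Set.univ c (m + 1) := by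
      refine ⟨fun _ _ => Set.mem_univ _, fun t ht => cart3 h (e3 _ _ ?_), fun s t h1 h2 => cart2 h (e2 _ _ ?_),
        fun j _ hc => ?_, fun s hs t ht e => ?_⟩
      · rw [hv _ (by omega), hv _ ht]
      · rw [hv _ (by omega), hv _ h2]
        exact h1
      · exact (hc j j.2 (Fin.ext (hv _ j.2))).elim
      · have e := congrArg Fin.val e
        rwa [hv _ hs, hv _ ht] at e
    have h1 := index_apath R hG hP fun _ _ => hq _
    have h2 : c 0 = i := Fin.ext (by rw [hv 0 hm, hi])
    rw [h2] at h1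
    rw [h1, sum2]
  · let c : ℕ → Fin (m + 1) := fun t => if ht : m - t < m + 1 then ⟨m - t, ht⟩ else 0
    have hv : ∀ t < m + 1, ((c t : Fin (m + 1)) : ℕ) = m - t := fun t ht => by
      simp only [c, dif_pos (show m - t < m + 1 by omega)]
    have hP : APath A Set.univ c (m + 1) := by
      refine ⟨fun _ _ => Set.mem_univ _, fun t ht => ?_, fun s t h1 h2 => ?_, fun j _ hc => ?_, fun s hs t ht e => ?_⟩
      · have := cart3 h (e3 (c (t + 1)) (c t) (by rw [hv _ ht, hv _ (by omega)]; omega))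
        exact ⟨this.2, this.1⟩
      · have := cart2 h (e2 (c t) (c s) (by rw [hv _ h2, hv _ (by omega)]; omega))
        exact ⟨this.2, this.1⟩
      · have hj := j.2
        exact (hc (m - j) (by omega) (Fin.ext (by rw [hv _ (by omega)]; omega))).elim
      · have e := congrArg Fin.val e
        simp only [hv s hs, hv t ht] at e
        omega
    have h1 := index_apath R hG hP fun _ _ => hq _
    have h2 : c 0 = i := Fin.ext (by rw [hv 0 hm]; omega)
    rw [h2] at h1
    rw [h1, sum2]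

end Fam

/-- **the middle node of `A₃`** -/
theorem index_A3 {W Y : Type*} [Group W] [Finite W] [Group Y] [Finite Y] {p : ℕ} {A : Fin 3 → Fin 3 → ℤ}
    {T : Subgroup Y} {n : Fin 3 → Y} {X : (Fin 3 → ℤ) → Subgroup Y}
    {cs : CoxeterSystem (Cfsg.Agent.LieRecognition.BNCox.cA 3) W}
    {h : IsCartan (Cfsg.Agent.LieRecognition.BNCox.cA 3) A} (R : RGD cs h p T n X) (hG : GG cs h T X = ⊤)
    (hq : ∀ j, Nat.card (X (sr j)) = 2) : (PJ cs h T X {1}ᶜ).index = 35 := by
  have a01 := cart3 h (i := 0) (j := 1) (by rw [Cfsg.Agent.LieRecognition.BNCox.cA_apply]; rfl)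
  have a12 := cart3 h (i := 1) (j := 2) (by rw [Cfsg.Agent.LieRecognition.BNCox.cA_apply]; rfl)
  have a02 := cart2 h (i := 0) (j := 2) (by rw [Cfsg.Agent.LieRecognition.BNCox.cA_apply]; rfl)
  have h1 := card_A3 R a01 a12 a02 (hq 0) (hq 1) (hq 2)
  have h2 := card_comm R (show (0 : Fin 3) ≠ 2 by decide) a02.1 (hq 0) (hq 2)
  have e1 : ({0, 1, 2} : Set (Fin 3)) = Set.univ := by
    ext j
    simp only [Set.mem_insert_iff, Set.mem_singleton_iff, Set.mem_univ, iff_true]
    revert j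
    decide
  have e2 : ({0, 2} : Set (Fin 3)) = {1}ᶜ := by
    ext j
    simp only [Set.mem_insert_iff, Set.mem_singleton_iff, Set.mem_compl_iff]
    revert j
    decide
  rw [e1] at h1
  rw [e2] at h2
  have h4 := relIndex_of_card (cs := cs) (h := h) (T := T) (X := X) (K := Set.univ) (L := {1}ᶜ)
    (Set.subset_univ _) (r := 35) (by rw [h1, h2]; ring)
  rwa [PJ_univ_top R hG, Subgroup.relIndex_top_right] at h4

end Cfsg.Agent.H515.EPO.IdxA
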