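import Cfsg.Agent.H737.EPO.RelOne
import Cfsg.Agent.H470.EPO.R1Sys

/-!
# S5745, OWN characteristic: relative rank one, more than one factor (helper515)

`N ≅ Y ^ k`, `k ≥ 2`, relative rank one. A type may be `univ` in all the components but one.
-/

set_option autoImplicit false
set_option linter.unusedSectionVars false

namespace Cfsg.Agent.H515.EPO.KTwo

open Cfsg.Agent.H284 Cfsg.Agent.H209.EPX Cfsg.Agent.H737.EPO
open scoped Pointwise

/-! ### Automorphisms of `Y ^ k`, two factors -/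

theorem perm2 {Y : Type*} [Group Y] [IsSimpleGroup Y] (hY : ∃ a b : Y, a * b ≠ b * a) {k : ℕ}
    (α : (Fin k → Y) ≃* (Fin k → Y)) (i j : Fin k) :
    (∀ t, α (Pi.mulSingle i t) j = 1) ∨ ∃ φ : MulAut Y, ∀ t, α (Pi.mulSingle i t) = Pi.mulSingle j (φ t) := by
  classical
  let σ : (Fin k → Y) ≃* (Fin k → Y) :=
    { toFun := fun f l => f (Equiv.swap i j l)
      invFun := fun f l => f (Equiv.swap i j l)
      left_inv := fun f => by funext l; simp
      right_inv := fun f => by funext l; simp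
      map_mul' := fun f g => rfl }
  have hσ : ∀ t : Y, σ (Pi.mulSingle j t) = Pi.mulSingle i t := by
    intro t
    funext l
    show (Pi.mulSingle j t : Fin k → Y) (Equiv.swap i j l) = (Pi.mulSingle i t : Fin k → Y) l
    by_cases hl : l = i
    · subst hl
      rw [Equiv.swap_apply_left, Pi.mulSingle_eq_same, Pi.mulSingle_eq_same]
    · rw [Pi.mulSingle_eq_of_ne hl]
      apply Pi.mulSingle_eq_of_ne
      intro h1
      apply hl
      have h2 := congrArg (Equiv.swap i j) h1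
      rwa [Equiv.swap_apply_self, Equiv.swap_apply_right] at h2
  rcases perm hY (α.trans σ) i with h1 | ⟨φ, h1⟩
  · left
    intro t
    have h2 : α (Pi.mulSingle i t) (Equiv.swap i j i) = 1 := h1 t
    rwa [Equiv.swap_apply_left] at h2
  · right
    refine ⟨φ, fun t => ?_⟩
    have h2 : σ (α (Pi.mulSingle i t)) = Pi.mulSingle i (φ t) := h1 t
    rw [← hσ (φ t)] at h2
    exact σ.injective h2

section Prod

variable {G Y : Type*} [Group G] [Group Y] {N : Subgroup G} {k : ℕ} (e : N ≃* (Fin k → Y))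

/-- the action of an element normalising `N` on the factors -/
theorem perm_sg2 [IsSimpleGroup Y] (hY : ∃ a b : Y, a * b ≠ b * a) {x : G} (hx : ∀ n : G, n ∈ N ↔ x * n * x⁻¹ ∈ N)
    (i j : Fin k) : (∀ t, cp e (x * sg e i t * x⁻¹) j = 1) ∨
      ∃ φ : MulAut Y, ∀ t, x * sg e i t * x⁻¹ = sg e j (φ t) := by
  let c : N ≃* N :=
    { toFun := fun n => ⟨x * n * x⁻¹, (hx n).1 n.2⟩
      invFun := fun n => ⟨x⁻¹ * n * x, (hx _).2 (by
        have : x * (x⁻¹ * (n : G) * x) * x⁻¹ = n := by group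
        rw [this]; exact n.2)⟩
      left_inv := fun n => Subtype.ext (by show x⁻¹ * (x * n * x⁻¹) * x = n; group)
      right_inv := fun n => Subtype.ext (by show x * (x⁻¹ * n * x) * x⁻¹ = n; group)
      map_mul' := fun a b => Subtype.ext (by
        show x * (a * b) * x⁻¹ = (x * a * x⁻¹) * (x * b * x⁻¹)
        group) }
  have hc : ∀ n : N, (c n : G) = x * n * x⁻¹ := fun n => rfl
  rcases perm2 hY (e.symm.trans (c.trans e)) i j with h1 | ⟨φ, h1⟩
  · left
    intro t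
    have h2 := h1 t
    have h3 : x * sg e i t * x⁻¹ ∈ N := (hx _).1 (sg_mem e i t)
    rw [cp_eq e h3]
    exact h2
  · right
    refine ⟨φ, fun t => ?_⟩
    have h2 : e (c (e.symm (Pi.mulSingle i t))) = Pi.mulSingle j (φ t) := h1 t
    have h3 : c (e.symm (Pi.mulSingle i t)) = e.symm (Pi.mulSingle j (φ t)) := by
      rw [← h2, e.symm_apply_apply]
    have h4 := congrArg (fun n : N => (n : G)) h3
    exact h4

end Prod

/-! ### The point stabiliser moves the factors -/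

section Main

variable {G Y : Type*} [Group G] [Finite G] [Group Y] [Finite Y] {H N M D W : Subgroup G} {k : ℕ}
  (e : N ≃* (Fin k → Y)) {p : ℕ} {I : Type*} {S : PSys Y p I}

variable [IsSimpleGroup Y] (hY : ∃ a b : Y, a * b ≠ b * a)

include hY

theorem move (hN : MinN N H) (hM : MX H N M) (i j : Fin k) :
    ∃ m ∈ M, ∃ φ : MulAut Y, ∀ t, m * sg e i t * m⁻¹ = sg e j (φ t) := by
  by_contra hcon
  have h1 : ∀ m ∈ M, ∀ t, cp e (m * sg e i t * m⁻¹) j = 1 := by
    intro m hm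
    rcases perm_sg2 e hY (x := m) (fun n => minN_iff hN (hM.le hm) n) i j with h2 | h2
    · exact h2
    · exact absurd ⟨m, hm, h2⟩ hcon
  have h2 : ∀ y ∈ H, ∀ t, cp e (y * sg e i t * y⁻¹) j = 1 := by
    intro y hy t
    obtain ⟨n, hn, m, hm, rfl⟩ := hM.fac hN hy
    have h3 : m * sg e i t * m⁻¹ ∈ N := hN.nrm m (hM.le hm) _ (sg_mem e i t)
    have e1 : n * m * sg e i t * (n * m)⁻¹ = n * (m * sg e i t * m⁻¹) * n⁻¹ := by group
    rw [e1, cp_mul e (mul_mem hn h3) (inv_mem hn), cp_mul e hn h3, cp_inv e hn, h1 m hm t, mul_one, mul_inv_cancel]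
  let L : Subgroup G :=
    { carrier := {x | x ∈ N ∧ ∀ y ∈ H, cp e (y * x * y⁻¹) j = 1}
      one_mem' := ⟨one_mem _, fun y _ => by
        have : y * 1 * y⁻¹ = 1 := by group
        rw [this, cp_one]⟩
      mul_mem' := by
        rintro a b ⟨h1, h2⟩ ⟨h3, h4⟩
        refine ⟨mul_mem h1 h3, fun y hy => ?_⟩
        have : y * (a * b) * y⁻¹ = (y * a * y⁻¹) * (y * b * y⁻¹) := by group
        rw [this, cp_mul e (hN.nrm y hy a h1) (hN.nrm y hy b h3), h2 y hy, h4 y hy, mul_one]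
      inv_mem' := by
        rintro a ⟨h1, h2⟩
        refine ⟨inv_mem h1, fun y hy => ?_⟩
        have : y * a⁻¹ * y⁻¹ = (y * a * y⁻¹)⁻¹ := by group
        rw [this, cp_inv e (hN.nrm y hy a h1), h2 y hy, inv_one] }
  have hL : NIn L H := by
    refine ⟨fun x hx => hN.le hx.1, ?_⟩
    rintro g hg x ⟨h1, h2⟩
    refine ⟨hN.nrm g hg x h1, fun y hy => ?_⟩
    have : y * (g * x * g⁻¹) * y⁻¹ = (y * g) * x * (y * g)⁻¹ := by group
    rw [this]; exact h2 _ (mul_mem hy hg)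
  obtain ⟨a, b, hab⟩ := hY
  rcases hN.min L (fun x hx => hx.1) hL with h3 | h3
  · apply hab
    have h4 : sg e i a = 1 := by
      have : sg e i a ∈ L := ⟨sg_mem e i a, fun y hy => h2 y hy a⟩
      rwa [h3, Subgroup.mem_bot] at this
    have h5 : a = 1 := by
      have := cp_sg e i a
      rw [h4, cp_one] at this
      exact this.symm
    rw [h5, one_mul, mul_one]
  · apply hab
    have h4 : sg e j a ∈ L := by rw [h3]; exact sg_mem e j a
    have h5 := h4.2 1 (one_mem _)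
    rw [one_mul, inv_one, mul_one, cp_sg] at h5
    rw [h5, one_mul, mul_one]

omit hY [IsSimpleGroup Y] in
/-- `p`-subgroups of `Y` -/
theorem sylY [Fact p.Prime] {K : Subgroup Y} (hK : IsPGroup p K) : ∃ g : Y, K ≤ cj g (S.V ∅) := by
  let Us : Sylow p Y :=
    { S.V ∅ with
      isPGroup' := S.U_p
      is_maximal' := fun {Q} hQ hle => S.U_max Q hle hQ }
  obtain ⟨Q, hQ⟩ := hK.exists_le_sylow
  obtain ⟨g, hg⟩ := MulAction.exists_smul_eq Y Us Q
  refine ⟨g, fun x hx => ?_⟩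
  have h1 : x ∈ (Q : Subgroup Y) := hQ hx
  rw [← hg] at h1
  rw [mem_cj]
  have h2 : x ∈ MulAut.conj g • (Us : Subgroup Y) := h1
  rw [Subgroup.mem_pointwise_smul_iff_inv_smul_mem] at h2
  have h3 : g⁻¹ * x * g ∈ (Us : Subgroup Y) := by
    have : (MulAut.conj g)⁻¹ • x = g⁻¹ * x * g := by
      rw [← map_inv, MulAut.smul_def, MulAut.conj_apply, inv_inv]
    rwa [this] at h2
  exact h3

theorem fac_conj [Fact p.Prime] (hN : MinN N H) (hM : MX H N M) {J : Fin k → Set I} {i₁ : Fin k} (h1 : J i₁ = ∅)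
    (hV : VV e S J ≤ M) (i : Fin k) : ∃ g : Y, cj g (S.V ∅) ≤ fac e M i := by
  obtain ⟨m, hm, φ, hφ⟩ := move e hY hN hM i₁ i
  have h2 : (S.V ∅).map φ.toMonoidHom ≤ fac e M i := by
    rintro _ ⟨t, ht, rfl⟩
    show sg e i (φ t) ∈ M
    rw [← hφ t]
    refine mul_mem (mul_mem hm (hV ((sg_mem_pk e).2 ?_))) (inv_mem hm)
    rw [h1]
    exact ht
  obtain ⟨g, hg⟩ := sylY (S := S) (S.U_p.map φ.toMonoidHom)
  refine ⟨g, ?_⟩
  have h3 : (S.V ∅).map φ.toMonoidHom = cj g (S.V ∅) := by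
    apply Subgroup.eq_of_le_of_card_ge hg
    rw [card_cj]
    exact (Subgroup.card_map_of_injective (K := S.V ∅) (f := φ.toMonoidHom) φ.injective).ge
  rw [← h3]
  exact h2

/-- the stabiliser of a vector over `V_J`, in relative rank one, `J i₁ = ∅` -/
theorem vec_stab2 [Fact p.Prime] [Nonempty I] (h : EP H) (hN : MinN N H)
    (hrel : ∀ L : Fin k → Set I, Inv H e S L → (∀ i, L i ≠ Set.univ) → L = fun _ => ∅) {J : Fin k → Set I}
    {i₁ : Fin k} (hJ : J i₁ = ∅) (hVD : VV e S J ≤ D) (hDP : D ≤ PH H e S J) (v : VecB H (PH H e S J) D W p) {w : G}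
    (hw : w ∈ W) (hwD : w ∉ D) : ∃ a ∈ PP e S J, (H ⊓ cj w H) ⊓ N = cj a (PP e S fun _ => ∅) := by
  have hM : MX H N (H ⊓ cj w H) := mx_of_two h hN ⟨w, v.notMem_H hw hwD, rfl⟩
  have hDH : D ≤ H := hDP.trans inf_le_left
  have hDw : cj w D = D := cj_eq_of_nm (v.WD w hw)
  have hDM : D ≤ H ⊓ cj w H := by
    refine le_inf hDH ?_
    rw [← hDw]
    exact cj_mono hDH
  choose g hg using fun i => fac_conj e hY (S := S) hN hM hJ (hVD.trans hDM) i
  obtain ⟨L, n, hn, hL, hMN⟩ := KL e S hY hN hM (J := fun _ => ∅) (fun _ => Set.empty_ne_univ) (g := g) hg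
  have hM' := hM.cj hN.nrm (inv_mem (hN.le hn))
  have hNn : cj n⁻¹ N = N := cj_eq_self (inv_mem hn)
  have hMN' : cj n⁻¹ (H ⊓ cj w H) ⊓ N = PP e S L := by
    have h1 : cj n⁻¹ (H ⊓ cj w H) ⊓ cj n⁻¹ N = PP e S L := by rw [← cj_inf, hMN, cj_inv_cj]
    rwa [hNn] at h1
  obtain ⟨L', hL'1, hL'2, hL'3, -, -⟩ := std e S hY hN hM' (by
    refine (VV_le_PP' e S _ L).trans ?_
    rw [← hMN']
    exact inf_le_left)
  have hLL : L = L' := PP_inj e S (hMN'.symm.trans hL'2)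
  have hL0 : L = fun _ => ∅ := by
    rw [hLL]
    exact hrel L' hL'3 hL'1
  rw [hL0] at hMN
  have hVJ : VV e S J ≤ cj n (PP e S fun _ => ∅) := by
    rw [← hMN]
    exact le_inf (hVD.trans hDM) (VV_le e S J)
  obtain ⟨a, ha, b, hb, rfl⟩ := PP_dec e S hn hVJ
  refine ⟨a, ha, ?_⟩
  rw [hMN, cj_mul, cj_eq_self hb]

/-- **relative rank one**, more than one factor -/
theorem rel_one2 [Fact p.Prime] (hS : Rk S) (h : EP H) (hN : MinN N H)
    (hrel : ∀ L : Fin k → Set I, Inv H e S L → (∀ i, L i ≠ Set.univ) → L = fun _ => ∅) {i₀ i₁ : Fin k} {j₀ : I}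
    (hi : i₁ ≠ i₀) (hDQ : DQ H e S (sgl i₀ j₀)) :
    p = 2 ∧ (S.V {j₀}).relIndex (S.V ∅) = 2 := by
  classical
  have : Nonempty I := ⟨j₀⟩
  obtain ⟨D, Q, hVD, hDP, hDp, hDn, hQp, hQn, hDQ', hQH, hQD⟩ := hDQ
  obtain ⟨W, -, hWD, v⟩ := exists_vecB (Fact.out : p.Prime) hDn hQp hQn hDQ' hQH hQD
  have hPH : PH H e S (sgl i₀ j₀) ≤ H := inf_le_left
  set P := PH H e S (sgl i₀ j₀) with hPdef
  set A := PP e S (sgl i₀ j₀) with hAdef
  set B := PP e S (fun _ => ∅) with hBdef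
  have hAP : A ≤ P := PP_le_PH e S hN.le _
  have hAN : A ≤ N := PP_le e S _
  have hBA : B ≤ A := (PP_le_iff e S).2 fun _ => Set.empty_subset _
  have hst : ∀ w ∈ W, w ∉ D → ∃ a ∈ A, (H ⊓ cj w H) ⊓ N = cj a B := fun w hw hwD =>
    vec_stab2 e hY h hN hrel (sgl_ne hi j₀) hVD hDP v hw hwD
  have hcjA : ∀ a ∈ A, cj a B ≤ A := by
    intro a ha
    rw [← cj_eq_self ha]
    exact cj_mono hBA
  -- fixed vectors of chambers
  have hfix : ∀ a ∈ A, ∀ w : W, v.vec w ∈ v.fix hDn (cj a B) ↔ cj a B ≤ cj (w : G) H := by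
    intro a ha w
    rw [v.vec_mem_fix hDn hPH, inf_eq_left.2 ((hcjA a ha).trans hAP)]
  have hstab : ∀ a ∈ A, ∀ w : W, (w : G) ∉ D → (v.vec w ∈ v.fix hDn (cj a B) ↔ (H ⊓ cj (w : G) H) ⊓ N = cj a B) := by
    intro a ha w hwD
    rw [hfix a ha w]
    constructor
    · intro h1
      obtain ⟨b, hb, hbw⟩ := hst w w.2 hwD
      have h2 : cj a B ≤ cj b B := by
        rw [← hbw]
        exact le_inf (le_inf (((hcjA a ha).trans hAN).trans hN.le) h1) ((hcjA a ha).trans hAN)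
      rw [hbw]
      symm
      apply Subgroup.eq_of_le_of_card_ge h2
      rw [card_cj, card_cj]
    · intro h1
      rw [← h1]
      exact inf_le_left.trans inf_le_right
  have hcong : ∀ a ∈ A, ∀ b ∈ A, a⁻¹ * b ∈ B → cj a B = cj b B := by
    intro a _ b _ h1
    have e1 : b = a * (a⁻¹ * b) := by group
    rw [e1, cj_mul, cj_eq_self h1]
  have hinj : ∀ a ∈ A, ∀ b ∈ A, cj a B = cj b B → a⁻¹ * b ∈ B := by
    intro a ha b hb h1
    apply norm_PP e S (mul_mem (inv_mem (hAN ha)) (hAN hb))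
    rw [cj_mul, ← hBdef, ← h1, cj_inv_cj]
  let V : (A ⧸ B.subgroupOf A) → Subgroup v.Vec := fun q => v.fix hDn (cj (q.out : G) B)
  have hmk : ∀ g : A, V (QuotientGroup.mk g) = v.fix hDn (cj (g : G) B) := by
    intro g
    show v.fix hDn (cj (((QuotientGroup.mk g : A ⧸ B.subgroupOf A).out : A) : G) B) = _
    have h2 : (QuotientGroup.mk (QuotientGroup.mk g : A ⧸ B.subgroupOf A).out : A ⧸ B.subgroupOf A) =
        QuotientGroup.mk g := QuotientGroup.out_eq' _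
    have h3 := QuotientGroup.eq.1 h2
    rw [hcong _ (Subtype.property _) _ g.2 h3]
  obtain ⟨a, ha, hidx⟩ := p_index (p := p) (VV_isPGroup e S _) (VV_le_VV e S (sgl i₀ j₀)) (by
    intro e1
    apply hS.ne j₀
    apply le_antisymm (S.V_le_U _)
    intro t ht
    have h1 : sg e i₀ t ∈ VV e S (sgl i₀ j₀) := by
      rw [e1]; exact (sg_mem_pk e).2 ht
    have h2 := (sg_mem_pk e).1 h1
    rwa [sgl_same] at h2)
  have hact : ∀ g : A, (g : G) ∈ P := fun g => hAP g.2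
  let ρ : A →* MulAut v.Vec := (v.act hDn).comp (Subgroup.inclusion hAP)
  have hρ : ∀ (g : A) (x : v.Vec), ρ g x = v.act hDn ⟨g, hAP g.2⟩ x := fun _ _ => rfl
  -- a vector
  obtain ⟨w₀, hw₀, hw₀D⟩ : ∃ w ∈ W, w ∉ D := by
    by_contra hcon
    push Not at hcon
    exact hWD (le_antisymm hcon v.DW)
  obtain ⟨a₀, ha₀, ha₀w⟩ := hst w₀ hw₀ hw₀D
  have hoe : ∀ (x y : A ⧸ B.subgroupOf A), ((x.out : A) : G)⁻¹ * (y.out : A) ∈ B → x = y := by
    intro x y h4
    have h5 : (QuotientGroup.mk x.out : A ⧸ B.subgroupOf A) = QuotientGroup.mk y.out := QuotientGroup.eq.2 h4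
    rwa [QuotientGroup.out_eq', QuotientGroup.out_eq'] at h5
  have hsm : ∀ (g : A) (x y : A ⧸ B.subgroupOf A), ((y.out : A) : G)⁻¹ * ((g : G) * (x.out : A)) ∈ B →
      g • x = y := by
    intro g x y h4
    have h5 : (QuotientGroup.mk y.out : A ⧸ B.subgroupOf A) = QuotientGroup.mk (g * x.out) := QuotientGroup.eq.2 h4
    rw [QuotientGroup.out_eq'] at h5
    have h6 : g • (QuotientGroup.mk x.out : A ⧸ B.subgroupOf A) = y := h5.symm
    rwa [QuotientGroup.out_eq'] at h6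
  have key := Cfsg.Agent.H470.EPO.panel (p := p) (a := a) ρ (MulAction.toPermHom A (A ⧸ B.subgroupOf A)) V
    (fun x => v.pow_eq_one x) ha (by
      have h1 := PP_index e hS i₀ j₀
      rw [hidx] at h1
      rw [add_comm, ← h1]
      rfl) ?_ ?_ ?_ ?_ ?_ ?_
  · obtain ⟨h1, h2, -, -⟩ := key
    refine ⟨h1, ?_⟩
    rw [← VV_index e i₀ j₀, hidx, h2, pow_one]
    exact h1
  · intro g q x hx
    have e1 : (MulAction.toPermHom A (A ⧸ B.subgroupOf A)) g q = QuotientGroup.mk (g * q.out) := by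
      show g • q = _
      conv_lhs => rw [← q.out_eq']
      rfl
    rw [e1, hmk, hρ]
    have h1 := (v.act_mem_fix hDn (⟨g, hAP g.2⟩ : P)).2 hx
    have h2 : cj ((⟨g, hAP g.2⟩ : P) : G) (cj (q.out : G) B) = cj ((g * q.out : A) : G) B := by
      rw [Subgroup.coe_mul, cj_mul]
    rw [h2] at h1
    exact h1
  · intro g q x hgq hx
    rw [hρ]
    apply hx
    show (g : G) ∈ cj (q.out : G) B
    have h2 : g • q = q := hgq
    have h3 : (QuotientGroup.mk (g * q.out) : A ⧸ B.subgroupOf A) = QuotientGroup.mk q.out := by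
      have h5 : g • (QuotientGroup.mk q.out : A ⧸ B.subgroupOf A) = QuotientGroup.mk q.out := by
        rw [QuotientGroup.out_eq']
        exact h2
      exact h5
    have h6 := QuotientGroup.eq.1 h3.symm
    have h4 : ((q.out : A) : G)⁻¹ * ((g * q.out : A) : G) ∈ B := h6
    rw [mem_cj]
    rw [Subgroup.coe_mul, ← mul_assoc] at h4
    exact h4
  · intro x
    obtain ⟨w, rfl⟩ := v.vec_surjective x
    by_cases hwD : (w : G) ∈ D
    · refine ⟨QuotientGroup.mk 1, ?_⟩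
      rw [(v.vec_eq_one).2 hwD]
      exact one_mem _
    · obtain ⟨b, hb, hbw⟩ := hst w w.2 hwD
      refine ⟨QuotientGroup.mk ⟨b, hb⟩, ?_⟩
      rw [hmk]
      exact (hstab b hb w hwD).2 hbw
  · intro q q' x hqq h1 h2
    obtain ⟨w, rfl⟩ := v.vec_surjective x
    by_contra h3
    have hwD := (v.vec_coe_ne_one).1 h3
    have h4 := (hstab _ q.out.2 w hwD).1 h1
    have h5 := (hstab _ q'.out.2 w hwD).1 h2
    exact hqq (hoe _ _ (hinj _ q.out.2 _ q'.out.2 (h4.symm.trans h5)))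
  · intro q
    have hx : v.vec ⟨w₀, hw₀⟩ ∈ v.fix hDn (cj a₀ B) := (hstab a₀ ha₀ ⟨w₀, hw₀⟩ hw₀D).2 ha₀w
    have hg : (q.out : G) * a₀⁻¹ ∈ P := hAP (mul_mem q.out.2 (inv_mem ha₀))
    refine ⟨v.act hDn ⟨(q.out : G) * a₀⁻¹, hg⟩ (v.vec ⟨w₀, hw₀⟩), ?_, ?_⟩
    · have h1 := (v.act_mem_fix hDn (⟨(q.out : G) * a₀⁻¹, hg⟩ : P)).2 hx
      have h2 : cj ((⟨(q.out : G) * a₀⁻¹, hg⟩ : P) : G) (cj a₀ B) = cj (q.out : G) B := by
        rw [← cj_mul, inv_mul_cancel_right]
      rw [h2] at h1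
      exact h1
    · intro h1
      rw [map_eq_one_iff _ (MulEquiv.injective _)] at h1
      exact hw₀D ((v.vec_eq_one).1 h1)
  · intro q d d' hd hd'
    have h1 : (q.out : G)⁻¹ * (d.out : G) ∉ B := fun h4 => hd (hoe _ _ h4).symm
    have h2 : (q.out : G)⁻¹ * (d'.out : G) ∉ B := fun h4 => hd' (hoe _ _ h4).symm
    obtain ⟨u, hu, hm⟩ := PP_trans e hS (A.mul_mem (A.inv_mem q.out.2) d.out.2) h1
      (A.mul_mem (A.inv_mem q.out.2) d'.out.2) h2
    have huA : u ∈ A := VV_le_PP' e S _ _ hu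
    have huB : u ∈ B := VV_le_PP e S _ hu
    refine ⟨q.out * ⟨u, huA⟩ * q.out⁻¹, hsm _ _ _ ?_, hsm _ _ _ ?_⟩
    · show ((q.out : A) : G)⁻¹ * ((q.out : A) * u * ((q.out : A) : G)⁻¹ * (q.out : A)) ∈ B
      have e1 : ((q.out : A) : G)⁻¹ * ((q.out : A) * u * ((q.out : A) : G)⁻¹ * (q.out : A)) = u := by group
      rw [e1]
      exact huB
    · show ((d'.out : A) : G)⁻¹ * ((q.out : A) * u * ((q.out : A) : G)⁻¹ * (d.out : A)) ∈ B
      have e1 : ((d'.out : A) : G)⁻¹ * ((q.out : A) * u * ((q.out : A) : G)⁻¹ * (d.out : A)) =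
          (((q.out : A) : G)⁻¹ * (d'.out : A))⁻¹ * u * (((q.out : A) : G)⁻¹ * (d.out : A)) := by group
      rw [e1]
      exact hm

/-- **COUNT** of the vectors fixed by `V_{J'}`, `J' ⊆ J` -/
theorem card_fix2 [Fact p.Prime] [Nonempty I] (h : EP H) (hN : MinN N H)
    (hrel : ∀ L : Fin k → Set I, Inv H e S L → (∀ i, L i ≠ Set.univ) → L = fun _ => ∅) {J J' : Fin k → Set I}
    {i₁ : Fin k} (hJ : J i₁ = ∅) (hJJ : ∀ i, J' i ⊆ J i) (hVD : VV e S J ≤ D) (hDP : D ≤ PH H e S J)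
    (hDn : ∀ g ∈ PH H e S J, ∀ d ∈ D, g * d * g⁻¹ ∈ D) (v : VecB H (PH H e S J) D W p) :
    Nat.card (v.fix hDn (VV e S J')) = 1 + (PP e S fun _ => ∅).relIndex (PP e S J') *
      (Nat.card (v.fix hDn (PP e S fun _ => ∅)) - 1) := by
  classical
  set P := PH H e S J with hPdef
  set Z := PP e S J with hZdef
  set A := PP e S J' with hAdef
  set B := PP e S (fun _ => ∅) with hBdef
  have hPH : P ≤ H := inf_le_left
  have hZP : Z ≤ P := PP_le_PH e S hN.le _
  have hAZ : A ≤ Z := (PP_le_iff e S).2 hJJ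
  have hAN : A ≤ N := PP_le e S _
  have hBA : B ≤ A := (PP_le_iff e S).2 fun _ => Set.empty_subset _
  have hst : ∀ w ∈ W, w ∉ D → ∃ a ∈ Z, (H ⊓ cj w H) ⊓ N = cj a B := fun w hw hwD =>
    vec_stab2 e hY h hN hrel hJ hVD hDP v hw hwD
  have hcjA : ∀ a ∈ A, cj a B ≤ A := by
    intro a ha
    rw [← cj_eq_self ha]
    exact cj_mono hBA
  have hVA : ∀ a ∈ A, VV e S J' ≤ cj a B := by
    intro a ha
    have h1 : cj a (VV e S J') = VV e S J' := cj_eq_of_nm fun x hx => PP_nm e S ha hx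
    rw [← h1]
    exact cj_mono (VV_le_PP' e S _ _)
  have hVP : VV e S J' ≤ P := (VV_le_PP e S J').trans (hAZ.trans hZP)
  have hstab : ∀ a ∈ A, ∀ w : W, (w : G) ∉ D → v.vec w ∈ v.fix hDn (cj a B) → (H ⊓ cj (w : G) H) ⊓ N = cj a B := by
    intro a ha w hwD h1
    have h1' : cj a B ≤ cj (w : G) H := by
      have := (v.vec_mem_fix hDn hPH).1 h1
      rwa [inf_eq_left.2 (((hcjA a ha).trans hAZ).trans hZP)] at this
    obtain ⟨b, hb, hbw⟩ := hst w w.2 hwD
    have h2 : cj a B ≤ cj b B := by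
      rw [← hbw]
      exact le_inf (le_inf ((((hcjA a ha).trans hAN)).trans hN.le) h1') ((hcjA a ha).trans hAN)
    rw [hbw]
    symm
    apply Subgroup.eq_of_le_of_card_ge h2
    rw [card_cj, card_cj]
  have hinj : ∀ a ∈ A, ∀ b ∈ A, cj a B = cj b B → a⁻¹ * b ∈ B := by
    intro a ha b hb h1
    apply norm_PP e S (mul_mem (inv_mem (hAN ha)) (hAN hb))
    rw [cj_mul, ← hBdef, ← h1, cj_inv_cj]
  have hcd : ∀ X : Subgroup v.Vec, Nat.card X - 1 = Nat.card {x : v.Vec // x ∈ X ∧ x ≠ 1} := by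
    intro X
    have e1 : Nat.card X = Set.ncard (X : Set v.Vec) := rfl
    have e3 : Nat.card {x : v.Vec // x ∈ X ∧ x ≠ 1} = Set.ncard ((X : Set v.Vec) \ {1}) := rfl
    rw [e1, e3, Set.ncard_sdiff (Set.singleton_subset_iff.2 (one_mem X)) (Set.toFinite _), Set.ncard_singleton]
  have hpos : 0 < Nat.card (v.fix hDn (VV e S J')) := Nat.card_pos
  have key : Nat.card (v.fix hDn (VV e S J')) - 1 = B.relIndex A * (Nat.card (v.fix hDn B) - 1) := by
    rw [hcd, hcd, Subgroup.relIndex, Subgroup.index, ← Nat.card_prod]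
    symm
    have hmem : ∀ (a : A) (x : v.Vec), x ∈ v.fix hDn B →
        v.act hDn ⟨a, hZP (hAZ a.2)⟩ x ∈ v.fix hDn (cj (a : G) B) := fun a x hx =>
      (v.act_mem_fix hDn (⟨a, hZP (hAZ a.2)⟩ : P)).2 hx
    have hne : ∀ (a : A) (x : v.Vec), x ≠ 1 → v.act hDn ⟨a, hZP (hAZ a.2)⟩ x ≠ 1 := by
      intro a x hx e1
      exact hx ((v.act hDn ⟨a, hZP (hAZ a.2)⟩).injective (by rw [e1, map_one]))
    apply Nat.card_congr
    refine Equiv.ofBijective (fun y => ⟨v.act hDn ⟨y.1.out, hZP (hAZ y.1.out.2)⟩ y.2.1, ?_, ?_⟩) ⟨?_, ?_⟩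
    · exact v.fix_anti hDn (hVA _ y.1.out.2) (hmem y.1.out y.2.1 y.2.2.1)
    · exact hne _ _ y.2.2.2
    · rintro ⟨q, ⟨x, hx, hx1⟩⟩ ⟨q', ⟨x', hx', hx1'⟩⟩ he
      have e1 : v.act hDn ⟨q.out, hZP (hAZ q.out.2)⟩ x = v.act hDn ⟨q'.out, hZP (hAZ q'.out.2)⟩ x' :=
        Subtype.ext_iff.1 he
      have h1 : q = q' := by
        obtain ⟨w, hw⟩ := v.vec_surjective (v.act hDn ⟨q.out, hZP (hAZ q.out.2)⟩ x)
        have hwD : (w : G) ∉ D := by
          rw [← v.vec_coe_ne_one, hw]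
          exact hne _ _ hx1
        have h2 := hstab q.out q.out.2 w hwD (by rw [hw]; exact hmem _ _ hx)
        have h3 := hstab q'.out q'.out.2 w hwD (by rw [hw, e1]; exact hmem _ _ hx')
        have h4 := hinj _ q.out.2 _ q'.out.2 (h2.symm.trans h3)
        rw [← q.out_eq', ← q'.out_eq']
        exact QuotientGroup.eq.2 h4
      subst h1
      have h6 := (v.act hDn _).injective e1
      subst h6
      rfl
    · rintro ⟨x, hx, hx1⟩
      obtain ⟨w, rfl⟩ := v.vec_surjective x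
      have hwD : (w : G) ∉ D := v.vec_coe_ne_one.1 hx1
      obtain ⟨a, ha, haw⟩ := hst w w.2 hwD
      have h1 : VV e S J' ≤ cj a B := by
        rw [← haw]
        refine le_inf (le_inf (hVP.trans hPH) ?_) (VV_le e S _)
        have := (v.vec_mem_fix hDn hPH).1 hx
        rwa [inf_eq_left.2 hVP] at this
      obtain ⟨a', ha', b, hb, rfl⟩ := PP_dec e S (PP_le e S _ ha) h1
      have h2 : (H ⊓ cj (w : G) H) ⊓ N = cj a' B := by rw [haw, cj_mul, cj_eq_self hb]
      let q : A ⧸ B.subgroupOf A := QuotientGroup.mk (⟨a', ha'⟩ : A)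
      have h3 : ((q.out : A) : G)⁻¹ * a' ∈ B := by
        have h4 : (QuotientGroup.mk q.out : A ⧸ B.subgroupOf A) = QuotientGroup.mk (⟨a', ha'⟩ : A) :=
          QuotientGroup.out_eq' _
        have h5 := QuotientGroup.eq.1 h4
        exact h5
      have h4 : cj (q.out : G) B = cj a' B := by
        have e1 : a' = (q.out : G) * ((q.out : G)⁻¹ * a') := by group
        conv_rhs => rw [e1, cj_mul, cj_eq_self h3]
      have h5 : v.vec w ∈ v.fix hDn (cj (q.out : G) B) := by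
        rw [v.vec_mem_fix hDn hPH, h4, ← h2]
        exact inf_le_left.trans (inf_le_left.trans inf_le_right)
      refine ⟨⟨q, ⟨(v.act hDn ⟨q.out, hZP (hAZ q.out.2)⟩).symm (v.vec w), ?_, ?_⟩⟩, ?_⟩
      · apply (v.act_mem_fix (S := B) hDn (⟨q.out, hZP (hAZ q.out.2)⟩ : P)
          (x := (v.act hDn ⟨q.out, hZP (hAZ q.out.2)⟩).symm (v.vec w))).1
        rw [MulEquiv.apply_symm_apply]
        exact h5
      · intro e1
        apply hx1
        have e2 := congrArg (v.act hDn ⟨q.out, hZP (hAZ q.out.2)⟩) e1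
        rwa [MulEquiv.apply_symm_apply, map_one] at e2
      · apply Subtype.ext
        exact MulEquiv.apply_symm_apply _ _
  omega

omit hY [IsSimpleGroup Y] in
/-- the chambers of a type in one component -/
theorem PP_index_comp {i : Fin k} {J : Fin k → Set I} (hJ : ∀ i', i' ≠ i → J i' = ∅) :
    (PP e S fun _ => ∅).relIndex (PP e S J) = (S.P ∅).relIndex (S.P (J i)) := by
  let f : N →* Y := (Pi.evalMonoidHom (fun _ => Y) i).comp e.toMonoidHom
  have hf : ∀ x : N, f x = cp e (x : G) i := fun x => by rw [cp_eq e x.2]; rfl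
  have h1 : ((PP e S J).subgroupOf N).map f = S.P (J i) := by
    apply le_antisymm
    · rintro _ ⟨x, hx, rfl⟩
      rw [hf]
      exact ((mem_pk e).1 hx).2 i
    · intro t ht
      refine ⟨⟨sg e i t, sg_mem e i t⟩, (sg_mem_pk e).2 ht, ?_⟩
      rw [hf, cp_sg]
  have h2 := Subgroup.relIndex_comap (S.P ∅) f ((PP e S J).subgroupOf N)
  rw [h1] at h2
  rw [← h2]
  have h3 : ∀ A B : Subgroup G, B ≤ N → (A.subgroupOf N).relIndex (B.subgroupOf N) = A.relIndex B := by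
    intro A B hB
    rw [Subgroup.relIndex_subgroupOf hB]
  rw [← h3 _ _ (PP_le e S _)]
  have h4 : ∀ A A' B : Subgroup N, A ⊓ B = A' ⊓ B → A.relIndex B = A'.relIndex B := by
    intro A A' B h
    rw [← Subgroup.inf_relIndex_right A, h, Subgroup.inf_relIndex_right]
  apply h4
  ext x
  constructor
  · rintro ⟨h5, h6⟩
    refine ⟨?_, h6⟩
    show f x ∈ S.P ∅
    rw [hf]
    exact ((mem_pk e).1 h5).2 i
  · rintro ⟨h5, h6⟩
    have h5' : f x ∈ S.P ∅ := h5
    rw [hf] at h5'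
    refine ⟨(mem_pk e).2 ⟨x.2, fun i' => ?_⟩, h6⟩
    by_cases hi' : i' = i
    · subst hi'
      exact h5'
    · have := ((mem_pk e).1 h6).2 i'
      rwa [hJ i' hi'] at this

/-- the whole component `i` -/
def col (i : Fin k) : Fin k → Set I := fun i' => {_j | i' = i}

omit hY [IsSimpleGroup Y] [Finite G] [Finite Y] in
theorem col_same {i : Fin k} : (col i : Fin k → Set I) i = Set.univ := by
  ext x; simp [col]

omit hY [IsSimpleGroup Y] [Finite G] [Finite Y] in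
theorem col_ne {i i' : Fin k} (h : i' ≠ i) : (col i : Fin k → Set I) i' = ∅ := by
  ext x; simp [col, h]

omit hY [IsSimpleGroup Y] in
include e in
/-- the chambers of a panel -/
theorem P_index (hS : Rk S) (i : Fin k) (j : I) :
    (S.P ∅).relIndex (S.P {j}) = 1 + (S.V {j}).relIndex (S.V ∅) := by
  rw [← VV_index e i j, ← PP_index e hS i j, PP_index_comp e (i := i) (fun i' hi' => sgl_ne hi' j), sgl_same]

/-- **relative rank one, more than one factor**: `p = 2`, all the panels have three chambers, and the number of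
chambers is a power of two minus one -/
theorem two_factors [Fact p.Prime] [Nonempty I] (hS : Rk S) (h : EP H) (hN : MinN N H)
    (hrel : ∀ L : Fin k → Set I, Inv H e S L → (∀ i, L i ≠ Set.univ) → L = fun _ => ∅) {i₀ i₁ : Fin k}
    (hi : i₁ ≠ i₀) (hDQ : ∀ J : Fin k → Set I, VV e S J ≠ ⊥ → DQ H e S J) :
    p = 2 ∧ (∀ j : I, (S.V {j}).relIndex (S.V ∅) = 2) ∧ ∃ s, 1 + (S.P ∅).index = 2 ^ s := by
  classical
  have h1 : ∀ j : I, p = 2 ∧ (S.V {j}).relIndex (S.V ∅) = 2 := fun j =>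
    rel_one2 e hY hS h hN hrel hi (hDQ _ (VV_ne_bot e (i := i₁) (by rw [sgl_ne hi]; exact Set.empty_ne_univ)))
  obtain ⟨j₀⟩ : Nonempty I := inferInstance
  have hp := (h1 j₀).1
  refine ⟨hp, fun j => (h1 j).2, ?_⟩
  set J : Fin k → Set I := col i₀ with hJdef
  have hJ1 : J i₁ = ∅ := col_ne hi
  obtain ⟨D, Q, hVD, hDP, hDp, hDn, hQp, hQn, hDQ', hQH, hQD⟩ := hDQ J (VV_ne_bot e (i := i₁) (by
    rw [hJ1]; exact Set.empty_ne_univ))
  obtain ⟨W, -, hWD, v⟩ := exists_vecB (Fact.out : p.Prime) hDn hQp hQn hDQ' hQH hQD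
  have hcount : ∀ J' : Fin k → Set I, (∀ i, J' i ⊆ J i) → Nat.card (v.fix hDn (VV e S J')) =
      1 + (PP e S fun _ => ∅).relIndex (PP e S J') * (Nat.card (v.fix hDn (PP e S fun _ => ∅)) - 1) := fun J' hJ' =>
    card_fix2 e hY h hN hrel hJ1 hJ' hVD hDP hDn v
  have hpow : ∀ X : Subgroup v.Vec, ∃ s, Nat.card X = 2 ^ s := by
    intro X
    obtain ⟨s, hs⟩ := IsPGroup.iff_card.1 (v.isPGroup.to_subgroup X)
    exact ⟨s, by rw [hs, hp]⟩
  -- `c = 2`
  have hc : Nat.card (v.fix hDn (PP e S fun _ => ∅)) = 2 := by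
    have h2 := hcount (sgl i₀ j₀) (sgl_le_iff.2 (by rw [hJdef, col_same]; trivial))
    rw [PP_index e hS i₀ j₀, VV_index, (h1 j₀).2] at h2
    obtain ⟨s, hs⟩ := hpow (v.fix hDn (VV e S (sgl i₀ j₀)))
    obtain ⟨a, ha⟩ := hpow (v.fix hDn (PP e S fun _ => ∅))
    have hne : Nat.card (v.fix hDn (PP e S fun _ => ∅)) ≠ 1 := by
      intro h3
      -- then `V = 1`
      have h4 := hcount J (fun _ => le_rfl)
      rw [h3, Nat.sub_self, Nat.mul_zero, Nat.add_zero] at h4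
      have h5 : v.fix hDn (VV e S J) = ⊥ := Subgroup.card_eq_one.1 h4
      apply hWD
      refine le_antisymm (fun w hw => ?_) v.DW
      rw [← v.vec_eq_one (w := ⟨w, hw⟩), ← Subgroup.mem_bot, ← h5, v.vec_mem_fix hDn (inf_le_left : PH H e S J ≤ H)]
      intro x hx
      show x ∈ cj w H
      have h6 := v.WD w⁻¹ (inv_mem hw) x (hVD hx.1)
      rw [inv_inv] at h6
      rw [mem_cj]
      exact (hDP.trans inf_le_left) h6
    rw [hs, ha] at h2
    rw [ha] at hne ⊢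
    match a, hne, h2 with
    | 0, hne, _ => exact absurd rfl hne
    | 1, _, _ => rfl
    | a + 2, _, h2 =>
      exfalso
      have h5 : 2 ^ (a + 2) = 4 * 2 ^ a := by rw [pow_add]; ring
      have h6 : 0 < 2 ^ a := by positivity
      match s, h2 with
      | 0, h2 => rw [pow_zero] at h2; omega
      | 1, h2 => rw [pow_one] at h2; omega
      | s + 2, h2 =>
        have h7 : 2 ^ (s + 2) = 4 * 2 ^ s := by rw [pow_add]; ring
        omega
  have h2 := hcount J (fun _ => le_rfl)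
  have hJ0 : J i₀ = Set.univ := col_same
  have hJi : ∀ i', i' ≠ i₀ → J i' = ∅ := fun i' hi' => col_ne hi'
  rw [hc, PP_index_comp e (i := i₀) hJi, hJ0, S.P_univ, Subgroup.relIndex_top_right] at h2
  obtain ⟨s, hs⟩ := hpow (v.fix hDn (VV e S J))
  exact ⟨s, by rw [← hs, h2]; omega⟩

/-- **more than one factor** -/
theorem k_eq_one [Fact p.Prime] [Nonempty I] {R : Subgroup G} (hS : Rk S) (h : EP H) (hN : MinN N H) (hk : 0 < k)
    (hR : SylIn H R p) (hRN : R ⊓ N = VV e S fun _ => ∅) (hDQ : ∀ J : Fin k → Set I, VV e S J ≠ ⊥ → DQ H e S J)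
    (hne : p = 2 → (∀ j : I, (S.V {j}).relIndex (S.V ∅) = 2) → ∀ s, 1 + (S.P ∅).index ≠ 2 ^ s) : k = 1 := by
  by_contra hk1
  by_cases hrel : ∀ L : Fin k → Set I, Inv H e S L → (∀ i, L i ≠ Set.univ) → L = fun _ => ∅
  · obtain ⟨h1, h2, s, h3⟩ := two_factors e hY hS h hN hrel (i₀ := ⟨0, hk⟩) (i₁ := ⟨1, by omega⟩)
      (by rw [Ne, Fin.mk.injEq]; omega) hDQ
    exact hne h1 h2 s h3
  · push Not at hrel
    obtain ⟨L, hL, hL1, hL0⟩ := hrel
    obtain ⟨i₀, h0⟩ : ∃ i, L i ≠ ∅ := by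
      by_contra hcon
      push Not at hcon
      exact hL0 (funext hcon)
    obtain ⟨-, h1, -⟩ := own_B e hY hS h hN hR hRN hDQ hL h0 (hL1 i₀)
    exact hk1 h1

end Main

end Cfsg.Agent.H515.EPO.KTwo
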