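import Cfsg.Agent.H515.EPO.IdxA
import Cfsg.Agent.H284.EPO.W3
import Cfsg.Agent.H869.EPO.GeoRGD
import Cfsg.Agent.H742.EX.Q2Grp
import Cfsg.Agent.H737.EPO.Q2Of

/-!
# S5745, OWN characteristic, `q = 2`: the socles `L_n(2)`, `n ≥ 4` (helper515)

* `index_le_A` : in the state `Q2` for type `A_m`, `m ≥ 3`: `|G : H| ≤ v (v + 1)`, `v ≤ 2 ^ (m + 1) - 1` or `v = 35`, `m = 3`;
* `q2_psl` : no stabiliser in an exceptional group over `GF(2^f)` has the socle `L_n(2) ^ k`.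
-/

set_option autoImplicit false
set_option linter.unusedSectionVars false

namespace Cfsg.Agent.H515.EPO.Q2PSL

open CoxeterSystem Cfsg.Agent.ChevalleyStructure.CoxeterGeom Cfsg.Agent.Tits.Roots Cfsg.Agent.Tits.Core
  Cfsg.Agent.Tits.RootComb Cfsg.Agent.Tits.Exchange Cfsg.Agent.Nodes.Reps Cfsg.Agent.Nodes.BNOf
  Cfsg.Agent.Nodes.StabComb Cfsg.Agent.Nodes.Bruhat Cfsg.Agent.Nodes.OppDec Cfsg.Agent.Nodes.LeviDec
  Cfsg.Agent.Nodes.Coroot Cfsg.Agent.KFacts.RgdPar Cfsg.Agent.KFacts.RgdSL Cfsg.Agent.KFacts.RgdVJ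
  Cfsg.Agent.KFacts.RgdCharP Cfsg.Agent.H284.TThree Cfsg.Agent.H515.EPO.IdxA Cfsg.Agent.H869.EPO
  Cfsg.Agent.H737.EPO Cfsg.Agent.H209.EPX

/-- **the index** for type `A_m`, `m ≥ 3` -/
theorem index_le_A {m : ℕ} (hm : 3 ≤ m) {W G Y : Type*} [Group W] [Finite W] [Group Y] [Finite Y] [IsSimpleGroup Y]
    [Group G] [Finite G] [Fact (Nat.Prime 2)] {A : Fin m → Fin m → ℤ}
    {T : Subgroup Y} {n : Fin m → Y} {X : (Fin m → ℤ) → Subgroup Y}
    {cs : CoxeterSystem (Cfsg.Agent.LieRecognition.BNCox.cA m) W}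
    {h : IsCartan (Cfsg.Agent.LieRecognition.BNCox.cA m) A} (R : RGD cs h 2 T n X)
    (hBT : BT cs h 2 T X) (hG : GG cs h T X = ⊤) (hX : RGD.Sup X {x | IsRoot cs h x} = ⊤)
    (hconn : Conn (Cfsg.Agent.LieRecognition.BNCox.cA m)) (hY : ∃ a b : Y, a * b ≠ b * a) {H N R' : Subgroup G}
    {e : N ≃* (Fin 1 → Y)} {i : Fin m} {t : G} (q : Q2 H R' e (ofRGD R hBT hG hX hconn) i t)
    (hq : ∀ j, Nat.card (X (sr j)) = 2) (hres : Res cs h T X i) :
    ∃ v : ℕ, (v + 1 ≤ 2 ^ (m + 1) ∨ (m + 1 = 4 ∧ v = 35)) ∧ H.index ≤ v * (v + 1) := by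
  have hi : ({i} : Set (Fin m)) ≠ Set.univ := by
    intro e1
    have h1 := Set.ncard_univ (Fin m)
    rw [← e1, Nat.card_fin, Set.ncard_singleton] at h1
    omega
  have hmain : ∀ hW : W3 cs i, H.index ≤ (PJ cs h T X {i}ᶜ).index * ((PJ cs h T X {i}ᶜ).index + 1) := fun hW =>
    index_le_of R hBT hG hX hconn hY q hi hW
  refine ⟨(PJ cs h T X {i}ᶜ).index, ?_, ?_⟩
  · rcases surv_A R hq hres with h1 | h1 | h1
    · exact Or.inl (index_A R hG hq (Or.inl h1)).le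
    · exact Or.inl (index_A R hG hq (Or.inr h1)).le
    · subst h1
      by_cases h2 : (i : ℕ) = 0 ∨ (i : ℕ) + 1 = 3
      · exact Or.inl (index_A R hG hq h2).le
      · right
        have h3 : i = 1 := by
          apply Fin.ext
          have := i.2
          show (i : ℕ) = 1
          omega
        subst h3
        exact ⟨rfl, index_A3 R hG hq⟩
  · rcases surv_A R hq hres with h1 | h1 | h1
    · exact hmain (w3_A h (Or.inl h1))
    · exact hmain (w3_A h (Or.inr h1))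
    · subst h1
      by_cases h2 : (i : ℕ) = 0 ∨ (i : ℕ) + 1 = 3
      · exact hmain (w3_A h h2)
      · have h3 : i = 1 := by
          apply Fin.ext
          have := i.2
          show (i : ℕ) = 1
          omega
        subst h3
        exact hmain (w3_A3 h)

/-- **the socle `L_d(2) ^ k`, `d ≥ 4`** -/
theorem q2_psl {G : Type} [Group G] [Finite G] [IsSimpleGroup G] (hGF : KFacts.RgdFilt.HasFilt 2 G)
    {F : H742.EX.Q2.Fam} {f : ℕ} (hok : H742.EX.Q2.okF F f = true) (hG : H742.EX.Q2.IsOrd F f G) {H N : Subgroup G}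
    {T : Type} [Group T] {k : ℕ} {e : N ≃* (Fin k → T)} (h : EPS H N e) {K : Type} [Field K] [Fintype K]
    (hK : Fintype.card K = 2) {d : ℕ} (hd : 4 ≤ d) (g : T ≃* Matrix.ProjectiveSpecialLinearGroup (Fin d) K) :
    False := by
  classical
  have h2 : Fact (Nat.Prime 2) := ⟨Nat.prime_two⟩
  have hchar : CharP K 2 := by
    obtain ⟨p, hp⟩ := CharP.exists K
    obtain ⟨n, hpn, hc⟩ := FiniteField.card K p
    rw [hK] at hc
    have h1 : p ∣ 2 := by
      rw [hc]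
      exact dvd_pow_self p n.2.ne'
    have h2 : p = 2 := (Nat.prime_dvd_prime_iff_eq hpn Nat.prime_two).1 h1
    rwa [h2] at hp
  have hTs := h.simple
  have hTf : Finite T := Finite.of_equiv _ g.symm.toEquiv
  obtain ⟨m, rfl⟩ : ∃ m, d = m + 1 := ⟨d - 1, by omega⟩
  have hF : KFacts.RgdFilt.HasFilt 2 T := KFacts.RgdFilt.HasFilt.of_equiv g.symm (KFacts.RgdFiltClass.hasFilt_PSL m)
  have hP : H50.Her.HasPan 2 (Cfsg.Agent.LieRecognition.BNCox.cA m) (fun _ => Nat.card K) T :=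
    (H804.PanPSL.pan_psl (F := K) m).of_equiv g.symm
  obtain ⟨hk, A, hC, Tt, n, X, hW, h2p, R, hBT, hGG, hX, hconn, e', R₀, i, t, q, hq, -, hres⟩ :=
    q2_pan (by omega) h hGF hP hF (Or.inl (by omega))
  subst hk
  obtain ⟨v, hv, hi⟩ := index_le_A (by omega) R hBT hGG hX hconn h.nab q
    (fun j => by rw [hq j, Nat.card_eq_fintype_card, hK]) hres
  exact H742.EX.Q2.dead_psl hok hG h hK (by omega) g hv hi

end Cfsg.Agent.H515.EPO.Q2PSL
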