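import Cfsg.Agent.H737.EPO.HSideB

/-!
# S3499 / S5745, OWN characteristic: relative rank at least two (helper515)

* `cm_iff` : the minimal parabolic subgroups `P_i`, `P_j` commute (`⟨P_i, P_j⟩ = P_i P_j`) iff `M i j = 2`;
* `inv_leaf` : the set of the leaves of the diagram is invariant under `N_H(U)`;
* `exists_leaf`, `not_all_leaf` : a connected diagram of a finite Weyl group with at least three nodes has a leaf and a
  node which is not a leaf;
* `exists_inv` : if the diagram of `L` is connected with at least three nodes, then `H` is not transitive on the nodes.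
-/

set_option autoImplicit false
set_option linter.unusedSectionVars false

namespace Cfsg.Agent.H515.EPO

open CoxeterSystem Cfsg.Agent.ChevalleyStructure.CoxeterGeom Cfsg.Agent.Tits.Roots Cfsg.Agent.Tits.Core
  Cfsg.Agent.Tits.RootComb Cfsg.Agent.Tits.Exchange Cfsg.Agent.Nodes.Reps Cfsg.Agent.Nodes.BNOf
  Cfsg.Agent.Nodes.StabComb Cfsg.Agent.Nodes.Bruhat Cfsg.Agent.Nodes.OppDec Cfsg.Agent.Nodes.LeviDec
  Cfsg.Agent.Nodes.Coroot Cfsg.Agent.KFacts.RgdPar Cfsg.Agent.KFacts.RgdSL Cfsg.Agent.KFacts.RgdVJ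
  Cfsg.Agent.KFacts.RgdCharP Cfsg.Agent.H737.EPO

/-- the subgroup generated by `A` and `B` is `AB` -/
def Cm {G : Type*} [Group G] (A B : Subgroup G) : Prop := ∀ z ∈ A ⊔ B, ∃ a ∈ A, ∃ b ∈ B, z = a * b

theorem Cm.symm {G : Type*} [Group G] {A B : Subgroup G} (h : Cm A B) : Cm B A := by
  intro z hz
  obtain ⟨a, ha, b, hb, e⟩ := h z⁻¹ (inv_mem (by rwa [sup_comm]))
  exact ⟨b⁻¹, inv_mem hb, a⁻¹, inv_mem ha, by rw [← mul_inv_rev, ← e, inv_inv]⟩

theorem Cm.cj {G : Type*} [Group G] {A B : Subgroup G} (h : Cm A B) (g : G) : Cm (H284.cj g A) (H284.cj g B) := by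
  intro z hz
  rw [← H737.EPO.cj_sup, H284.mem_cj] at hz
  obtain ⟨a, ha, b, hb, e⟩ := h _ hz
  refine ⟨g * a * g⁻¹, H284.conj_mem_cj ha, g * b * g⁻¹, H284.conj_mem_cj hb, ?_⟩
  have : z = g * (g⁻¹ * z * g) * g⁻¹ := by group
  rw [this, e]
  group

/-! ### the diagram -/

section Diag

variable {I W Y : Type*} [Fintype I] [DecidableEq I] [Group W] [Group Y] {M : CoxeterMatrix I}
  {cs : CoxeterSystem M W} {A : I → I → ℤ} {h : IsCartan M A} {p : ℕ} {T : Subgroup Y} {n : I → Y}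
  {X : (I → ℤ) → Subgroup Y}

/-- `a` has exactly one neighbour -/
def Leaf (M : CoxeterMatrix I) (a : I) : Prop := ∃! b, b ≠ a ∧ M a b ≠ 2

include cs h in
theorem exists_leaf [Finite W] (hconn : Conn M) (h2 : 2 ≤ Fintype.card I) : ∃ a, Leaf M a := by
  classical
  have := Fintype.ofFinite W
  have hne : Nonempty I := Fintype.card_pos_iff.1 (by omega)
  obtain ⟨a, -, ha⟩ := exists_pairing_pos cs h (x := fun _ : I => (1 : ℤ)) (fun _ => zero_le_one) (by
    intro h0
    have := congrFun h0 hne.some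
    exact one_ne_zero this)
  obtain ⟨c, hc⟩ : ∃ c, c ≠ a := by
    have := Fintype.one_lt_card_iff_nontrivial.1 (show 1 < Fintype.card I by omega)
    exact exists_ne a
  obtain ⟨a', ha', b, hb, hab⟩ := hconn {a} ⟨a, rfl⟩ (by
    intro h0
    have : c ∈ ({a} : Set I) := by rw [h0]; trivial
    exact hc this)
  rw [Set.mem_singleton_iff] at ha'
  subst ha'
  refine ⟨a', b, ⟨hb, hab⟩, ?_⟩
  rintro b' ⟨hb1, hb2⟩
  by_contra hne'
  -- two neighbours: the pairing is `≤ 0`
  have h3 : pairing A a' (fun _ => (1 : ℤ)) ≤ 0 := by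
    unfold pairing
    simp only [mul_one]
    have h4 : ∑ k, A a' k = A a' a' + (A a' b + (A a' b' + ∑ k ∈ ((Finset.univ.erase a').erase b).erase b', A a' k)) := by
      rw [Finset.add_sum_erase ((Finset.univ.erase a').erase b) _ (Finset.mem_erase.2 ⟨hne', Finset.mem_erase.2
        ⟨hb1, Finset.mem_univ _⟩⟩), Finset.add_sum_erase (Finset.univ.erase a') _ (Finset.mem_erase.2
        ⟨hb, Finset.mem_univ _⟩), Finset.add_sum_erase Finset.univ _ (Finset.mem_univ _)]
    have h5 : ∑ k ∈ ((Finset.univ.erase a').erase b).erase b', A a' k ≤ 0 :=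
      Finset.sum_nonpos fun k hk => cartan_nonpos h fun e => by
        rw [← e] at hk
        exact (Finset.mem_erase.1 (Finset.mem_of_mem_erase (Finset.mem_of_mem_erase hk))).1 rfl
    have h6 := cartan_neg h (i := a') (j := b) (fun e => hb (by rw [e]; rfl)) hab
    have h7 := cartan_neg h (i := a') (j := b') (fun e => hb1 e.symm) hb2
    have h8 := h.diag a'
    omega
  exact absurd ha (not_lt.2 h3)

theorem not_all_leaf (hconn : Conn M) (h3 : 3 ≤ Fintype.card I) : ∃ a, ¬ Leaf M a := by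
  classical
  by_contra hcon
  push Not at hcon
  obtain ⟨a⟩ : Nonempty I := Fintype.card_pos_iff.1 (by omega)
  obtain ⟨b, ⟨hb, hab⟩, hu⟩ := hcon a
  obtain ⟨b', ⟨hb', hba⟩, hu'⟩ := hcon b
  have e1 : b' = a := (hu' a ⟨hb.symm, by rwa [M.symmetric b a]⟩).symm
  subst e1
  obtain ⟨x, hx, c, hc, hxc⟩ := hconn {b', b} ⟨b', Or.inl rfl⟩ (by
    intro h0
    have h1 : (Finset.univ : Finset I) ⊆ {b', b} := by
      intro x _
      have : x ∈ ({b', b} : Set I) := by rw [h0]; trivial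
      simpa using this
    have h4 := Finset.card_le_card h1
    have h5 := Finset.card_le_two (a := b') (b := b)
    rw [Finset.card_univ] at h4
    omega)
  simp only [Set.mem_insert_iff, Set.mem_singleton_iff, not_or] at hx hc
  rcases hx with rfl | rfl
  · exact hc.2 (hu c ⟨hc.1, hxc⟩)
  · exact hc.1 (hu' c ⟨hc.2, hxc⟩)

variable (R : RGD cs h p T n X)

include R

theorem mem_WJ_single {i : I} {w : W} (hw : w ∈ WJ cs {i}) : w = 1 ∨ w = cs.simple i := by
  have h1 : WJ cs {i} = Subgroup.zpowers (cs.simple i) := by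
    unfold WJ
    rw [Set.image_singleton, Subgroup.zpowers_eq_closure]
  rw [h1] at hw
  obtain ⟨k, rfl⟩ := hw
  rcases Int.even_or_odd' k with ⟨m, rfl | rfl⟩
  · left
    show cs.simple i ^ (2 * m) = 1
    rw [zpow_mul, zpow_two, cs.simple_mul_simple_self, one_zpow]
  · right
    show cs.simple i ^ (2 * m + 1) = _
    rw [zpow_add, zpow_mul, zpow_two, cs.simple_mul_simple_self, one_zpow, one_mul, zpow_one]

theorem n_mem_PJ {J : Set I} {i : I} (hi : i ∈ J) : n i ∈ PJ cs h T X J := LJ_le_PJ (n_mem_LJ R hi)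

omit R in
theorem simple_ne {i j : I} (h : IsCartan M A) (hij : i ≠ j) : cs.simple i ≠ cs.simple j := by
  intro h0
  have h1 : cs.simple j ∈ WJ cs ({j} : Set I) := simple_mem_WJ cs (Set.mem_singleton j)
  rw [← h0, simple_mem_WJ_iff h, Set.mem_singleton_iff] at h1
  exact hij h1

omit R in
theorem simple_ne_one (h : IsCartan M A) (i : I) : cs.simple i ≠ 1 := by
  intro h0
  have h1 : cs.simple i ∈ WJ cs ∅ := by rw [h0]; exact one_mem _
  exact (simple_mem_WJ_iff h).1 h1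

omit R in
theorem length_two {i j : I} (h : IsCartan M A) (hij : i ≠ j) : cs.length (cs.simple i * cs.simple j) = 2 := by
  rcases cs.length_simple_mul (cs.simple j) i with h2 | h2
  · rw [h2, cs.length_simple]
  · exfalso
    rw [cs.length_simple] at h2
    have h3 : cs.length (cs.simple i * cs.simple j) = 0 := by omega
    rw [cs.length_eq_zero_iff] at h3
    have h4 := mul_eq_one_iff_eq_inv.1 h3
    rw [cs.inv_simple] at h4
    exact simple_ne h hij h4

omit R in
theorem length_add {i j : I} (h : IsCartan M A) (hij : i ≠ j) {u v : W} (hu : u = 1 ∨ u = cs.simple i)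
    (hv : v = 1 ∨ v = cs.simple j) : cs.length (u * v) = cs.length u + cs.length v := by
  rcases hu with hu | hu <;> rcases hv with hv | hv <;> rw [hu, hv]
  · rw [mul_one, cs.length_one]
  · rw [one_mul, cs.length_one, zero_add]
  · rw [mul_one, cs.length_one, add_zero]
  · rw [length_two h hij, cs.length_simple, cs.length_simple]

omit R in
theorem eq_of_prod {i j : I} (h : IsCartan M A) (hij : i ≠ j) {u v : W} (hu : u = 1 ∨ u = cs.simple i)
    (hv : v = 1 ∨ v = cs.simple j) (h2 : cs.simple j * cs.simple i = u * v) :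
    cs.simple j * cs.simple i = cs.simple i * cs.simple j := by
  have hne := simple_ne (cs := cs) h hij.symm
  have h1i := simple_ne_one (cs := cs) h i
  have h1j := simple_ne_one (cs := cs) h j
  rcases hu with hu | hu <;> rcases hv with hv | hv <;> rw [hu, hv] at h2
  · exfalso
    rw [one_mul] at h2
    have := mul_eq_one_iff_eq_inv.1 h2
    rw [cs.inv_simple] at this
    exact hne this
  · exfalso
    rw [one_mul, mul_eq_left] at h2
    exact h1i h2
  · exfalso
    rw [mul_one, mul_eq_right] at h2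
    exact h1j h2
  · exact h2

theorem comm_of_cm [Finite W] {i j : I} (hij : i ≠ j) (hc : Cm (PJ cs h T X {i}) (PJ cs h T X {j})) :
    cs.simple j * cs.simple i = cs.simple i * cs.simple j := by
  have h1 : n j * n i ∈ PJ cs h T X {i} ⊔ PJ cs h T X {j} :=
    mul_mem ((le_sup_right : _ ≤ PJ cs h T X {i} ⊔ _) (n_mem_PJ R rfl))
      ((le_sup_left : _ ≤ _ ⊔ PJ cs h T X {j}) (n_mem_PJ R rfl))
  obtain ⟨a, ha, b, hb, e⟩ := hc _ h1
  obtain ⟨u, hu, hau⟩ := (mem_PJ_iff_cell R).1 ha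
  obtain ⟨v, hv, hbv⟩ := (mem_PJ_iff_cell R).1 hb
  have hc1 : Cell R.nsys cs h X (cs.simple j * cs.simple i) (n j * n i) :=
    cell_of_rp ((rp_simple cs R.nsys j).mul (rp_simple cs R.nsys i))
  have hu' := mem_WJ_single R hu
  have hv' := mem_WJ_single R hv
  have hc2 : Cell R.nsys cs h X (u * v) (a * b) := Cell.mul_of_length R (length_add h hij hu' hv') hau hbv
  rw [e] at hc1
  exact eq_of_prod h hij hu' hv' (Cell.unique R hc1 hc2)

/-- **the minimal parabolics commute iff the nodes are not joined** -/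
theorem cm_iff [Finite W] {i j : I} (hij : i ≠ j) : Cm (PJ cs h T X {i}) (PJ cs h T X {j}) ↔ M i j = 2 := by
  constructor
  · intro hc
    have h1 := comm_of_cm R hij hc
    by_contra hne
    have h2 := cartan_neg h (i := j) (j := i) hij.symm (by rwa [M.symmetric j i])
    have h3 := congrArg (fun w => rep cs h w (sr i)) h1
    simp only [rep_mul_apply, rep_simple_sr, map_neg] at h3
    rw [rep_simple_eq cs h j (sr i), map_sub, rep_simple_sr, map_smul, rep_simple_eq cs h i (sr j)] at h3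
    have h4 := congrFun h3 j
    have e1 : pairing A j (sr i) = A j i := by
      unfold sr
      rw [pairing_single, mul_one]
    rw [e1] at h4
    simp only [Pi.neg_apply, Pi.sub_apply, Pi.smul_apply, smul_eq_mul, sr_self, sr_ne hij.symm] at h4
    simp at h4
    omega
  · intro h2 z hz
    have hcomm : cs.simple i * cs.simple j = cs.simple j * cs.simple i := by
      have h3 := cs.simple_mul_simple_pow i j
      rw [h2, pow_two] at h3
      have h4 := mul_eq_one_iff_eq_inv.1 h3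
      rw [mul_inv_rev, cs.inv_simple, cs.inv_simple] at h4
      exact h4
    have hz' : z ∈ PJ cs h T X {i, j} := by
      have : PJ cs h T X {i} ⊔ PJ cs h T X {j} ≤ PJ cs h T X {i, j} :=
        sup_le (H470.EPK.PJ_mono (by simp)) (H470.EPK.PJ_mono (by simp))
      exact this hz
    obtain ⟨w, hw, b₁, hb₁, k, hk, b₂, hb₂, rfl⟩ := (mem_PJ_iff_cell R).1 hz'
    -- `w = u v`
    have hcW : ∀ u ∈ WJ cs {i}, ∀ v ∈ WJ cs {j}, u * v = v * u := by
      intro u hu v hv
      rcases mem_WJ_single R hu with rfl | rfl <;> rcases mem_WJ_single R hv with rfl | rfl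
      · rfl
      · rw [one_mul, mul_one]
      · rw [one_mul, mul_one]
      · exact hcomm
    obtain ⟨u, hu, v, hv, rfl⟩ : ∃ u ∈ WJ cs {i}, ∃ v ∈ WJ cs {j}, w = u * v := by
      let K : Subgroup W :=
        { carrier := {w | ∃ u ∈ WJ cs {i}, ∃ v ∈ WJ cs {j}, w = u * v}
          one_mem' := ⟨1, one_mem _, 1, one_mem _, (mul_one 1).symm⟩
          mul_mem' := by
            rintro _ _ ⟨u, hu, v, hv, rfl⟩ ⟨u', hu', v', hv', rfl⟩
            refine ⟨u * u', mul_mem hu hu', v * v', mul_mem hv hv', ?_⟩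
            rw [mul_assoc u v, ← mul_assoc v u', ← hcW u' hu' v hv]
            group
          inv_mem' := by
            rintro _ ⟨u, hu, v, hv, rfl⟩
            refine ⟨u⁻¹, inv_mem hu, v⁻¹, inv_mem hv, ?_⟩
            rw [mul_inv_rev, hcW _ (inv_mem hu) _ (inv_mem hv)] }
      have hK : WJ cs {i, j} ≤ K := by
        unfold WJ
        rw [Subgroup.closure_le]
        rintro _ ⟨a, ha, rfl⟩
        rcases ha with rfl | rfl
        · exact ⟨_, simple_mem_WJ cs rfl, 1, one_mem _, (mul_one _).symm⟩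
        · exact ⟨1, one_mem _, _, simple_mem_WJ cs rfl, (one_mul _).symm⟩
      exact hK hw
    obtain ⟨g, hg⟩ := exists_rp cs R.nsys u
    obtain ⟨g', hg'⟩ := exists_rp cs R.nsys v
    have ht := (hg.mul hg').unique hk
    refine ⟨b₁ * g, mul_mem (B_le_PJ hb₁) (LJ_le_PJ (rp_mem_LJ R hu hg)), g' * ((g * g')⁻¹ * k) * b₂,
      mul_mem (mul_mem (LJ_le_PJ (rp_mem_LJ R hv hg')) (B_le_PJ (RGD.T_le_B ht))) (B_le_PJ hb₂), ?_⟩
    group

end Diag

/-! ### invariance of the leaves -/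

section Std

variable {G Y : Type*} [Group G] [Finite G] [Group Y] [Finite Y] {H N : Subgroup G} {k : ℕ}
  (e : N ≃* (Fin k → Y)) {p : ℕ} {I : Type*} (S : PSys Y p I)

/-- the type consisting of one node -/
def sgl (i : Fin k) (a : I) : Fin k → Set I := fun j => {b | j = i ∧ b = a}

theorem sgl_self (i : Fin k) (a : I) : sgl i a i = {a} := by
  ext b
  simp [sgl]

theorem sgl_ne {i j : Fin k} (hij : j ≠ i) (a : I) : sgl i a j = ∅ := by
  ext b
  simp [sgl, hij]

theorem sgl_subset_iff {i : Fin k} {a : I} {J : Fin k → Set I} : (∀ j, sgl i a j ⊆ J j) ↔ a ∈ J i := by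
  constructor
  · intro h
    exact h i ⟨rfl, rfl⟩
  · rintro h j b ⟨rfl, rfl⟩
    exact h

theorem sgl_inj {i j : Fin k} {a b : I} (h : sgl i a = sgl j b) : i = j ∧ a = b := by
  have h1 : a ∈ sgl j b i := by rw [← h]; exact ⟨rfl, rfl⟩
  exact h1

/-- `Q` is a minimal parabolic subgroup -/
def Mn (Q : Subgroup G) : Prop := Q ≠ PP e S (fun _ => ∅) ∧ PP e S (fun _ => ∅) ≤ Q ∧ Q ≤ N ∧
  ∀ Q', PP e S (fun _ => ∅) ≤ Q' → Q' ≤ Q → Q' = PP e S (fun _ => ∅) ∨ Q' = Q

theorem mn_iff {Q : Subgroup G} : Mn e S Q ↔ ∃ i a, Q = PP e S (sgl i a) := by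
  constructor
  · rintro ⟨h1, h2, h3, h4⟩
    obtain ⟨J, rfl⟩ := PP_over e S h2 h3
    obtain ⟨i, a, ha⟩ : ∃ i a, a ∈ J i := by
      by_contra hcon
      push Not at hcon
      apply h1
      congr 1
      funext i
      exact Set.eq_empty_of_forall_notMem (hcon i)
    refine ⟨i, a, ?_⟩
    rcases h4 (PP e S (sgl i a)) ((PP_le_iff e S).2 fun _ => Set.empty_subset _)
      ((PP_le_iff e S).2 (sgl_subset_iff.2 ha)) with h5 | h5
    · exfalso
      have h6 := congrFun (PP_inj e S h5) i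
      rw [sgl_self] at h6
      exact (Set.singleton_ne_empty a) h6
    · exact h5.symm
  · rintro ⟨i, a, rfl⟩
    refine ⟨?_, (PP_le_iff e S).2 fun _ => Set.empty_subset _, PP_le e S _, fun Q' h1 h2 => ?_⟩
    · intro h5
      have h6 := congrFun (PP_inj e S h5) i
      rw [sgl_self] at h6
      exact (Set.singleton_ne_empty a) h6
    · obtain ⟨J, rfl⟩ := PP_over e S h1 (h2.trans (PP_le e S _))
      rw [PP_le_iff] at h2
      by_cases ha : a ∈ J i
      · right
        congr 1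
        funext j
        exact Set.Subset.antisymm (h2 j) (sgl_subset_iff.2 ha j)
      · left
        congr 1
        funext j
        apply Set.eq_empty_of_forall_notMem
        intro b hb
        obtain ⟨rfl, rfl⟩ := h2 j hb
        exact ha hb

/-- two components -/
theorem cm_iff_of_ne {i : Fin k} {a b : I} (hab : a ≠ b) :
    Cm (PP e S (sgl i a)) (PP e S (sgl i b)) ↔ Cm (S.P {a}) (S.P {b}) := by
  have hu : ∀ i : Fin k, (fun j => sgl i a j ∪ sgl i b j) i = ({a, b} : Set I) := by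
    intro i
    show sgl i a i ∪ sgl i b i = _
    rw [sgl_self, sgl_self]
    rfl
  constructor
  · intro h z hz
    rw [S.P_sup] at hz
    have h1 : sg e i z ∈ PP e S (sgl i a) ⊔ PP e S (sgl i b) := by
      rw [PP_sup]
      refine (sg_mem_pk e).2 ?_
      rw [hu i]
      exact hz
    obtain ⟨x, hx, y, hy, he⟩ := h _ h1
    obtain ⟨hx1, hx2⟩ := (mem_pk e).1 hx
    obtain ⟨hy1, hy2⟩ := (mem_pk e).1 hy
    have hx3 := hx2 i
    have hy3 := hy2 i
    rw [sgl_self] at hx3 hy3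
    refine ⟨_, hx3, _, hy3, ?_⟩
    rw [← cp_mul e hx1 hy1, ← he, cp_sg]
  · intro h z hz
    rw [PP_sup] at hz
    obtain ⟨hzN, hz2⟩ := (mem_pk e).1 hz
    have hz3 : cp e z i ∈ S.P {a} ⊔ S.P {b} := by
      have := hz2 i
      rw [hu i] at this
      rw [S.P_sup]
      exact this
    obtain ⟨x, hx, y, hy, hxy⟩ := h _ hz3
    have hc : ∀ j, ∃ x' ∈ S.P (sgl i a j), ∃ y' ∈ S.P (sgl i b j), cp e z j = x' * y' := by
      intro j
      by_cases hj : j = i
      · subst hj
        rw [sgl_self, sgl_self]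
        exact ⟨x, hx, y, hy, hxy⟩
      · have : cp e z j ∈ S.P (sgl i a j ∪ sgl i b j) := hz2 j
        rw [show (sgl i a j ∪ sgl i b j) = (∅ : Set I) by rw [sgl_ne hj, sgl_ne hj, Set.union_empty]] at this
        rw [sgl_ne hj, sgl_ne hj]
        exact ⟨_, this, 1, one_mem _, (mul_one _).symm⟩
    choose f hf g hg hfg using hc
    obtain ⟨x', hx', hx'2⟩ := exists_cp e f
    obtain ⟨y', hy', hy'2⟩ := exists_cp e g
    refine ⟨x', (mem_pk e).2 ⟨hx', fun j => by rw [hx'2]; exact hf j⟩, y',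
      (mem_pk e).2 ⟨hy', fun j => by rw [hy'2]; exact hg j⟩, ?_⟩
    apply ext_cp e hzN (mul_mem hx' hy')
    intro j
    rw [cp_mul e hx' hy', hx'2, hy'2]
    exact hfg j

theorem cm_of_ne {i j : Fin k} (hij : i ≠ j) (a b : I) : Cm (PP e S (sgl i a)) (PP e S (sgl j b)) := by
  intro z hz
  rw [PP_sup] at hz
  obtain ⟨hzN, hz2⟩ := (mem_pk e).1 hz
  have hc : ∀ l, ∃ x' ∈ S.P (sgl i a l), ∃ y' ∈ S.P (sgl j b l), cp e z l = x' * y' := by
    intro l
    have h1 : cp e z l ∈ S.P (sgl i a l ∪ sgl j b l) := hz2 l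
    by_cases hl : l = i
    · subst hl
      rw [sgl_ne hij] at h1 ⊢
      rw [Set.union_empty] at h1
      exact ⟨_, h1, 1, one_mem _, (mul_one _).symm⟩
    · rw [sgl_ne hl] at h1 ⊢
      rw [Set.empty_union] at h1
      exact ⟨1, one_mem _, _, h1, (one_mul _).symm⟩
  choose f hf g hg hfg using hc
  obtain ⟨x', hx', hx'2⟩ := exists_cp e f
  obtain ⟨y', hy', hy'2⟩ := exists_cp e g
  refine ⟨x', (mem_pk e).2 ⟨hx', fun j => by rw [hx'2]; exact hf j⟩, y',
    (mem_pk e).2 ⟨hy', fun j => by rw [hy'2]; exact hg j⟩, ?_⟩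
  apply ext_cp e hzN (mul_mem hx' hy')
  intro l
  rw [cp_mul e hx' hy', hx'2, hy'2]
  exact hfg l

/-- `a` has exactly one neighbour, in terms of the parabolic subgroups -/
def PLeaf (a : I) : Prop := ∃! b, b ≠ a ∧ ¬ Cm (S.P {a}) (S.P {b})

/-- the same in `N` -/
def QLeaf (Q : Subgroup G) : Prop := ∃! Q', Mn e S Q' ∧ Q' ≠ Q ∧ ¬ Cm Q Q'

theorem qleaf_iff (i : Fin k) (a : I) : QLeaf e S (PP e S (sgl i a)) ↔ PLeaf S a := by
  constructor
  · rintro ⟨Q', ⟨h1, h2, h3⟩, h4⟩
    obtain ⟨j, b, rfl⟩ := (mn_iff e S).1 h1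
    have hij : i = j := by
      by_contra hij
      exact h3 (cm_of_ne e S hij a b)
    subst hij
    have hab : b ≠ a := by
      rintro rfl
      exact h2 rfl
    refine ⟨b, ⟨hab, fun h5 => h3 ((cm_iff_of_ne e S hab.symm).2 h5)⟩, ?_⟩
    rintro c ⟨hc1, hc2⟩
    have h5 := h4 (PP e S (sgl i c)) ⟨(mn_iff e S).2 ⟨i, c, rfl⟩, fun h6 => hc1 (sgl_inj (PP_inj e S h6)).2,
      fun h6 => hc2 ((cm_iff_of_ne e S hc1.symm).1 h6)⟩
    exact (sgl_inj (PP_inj e S h5)).2
  · rintro ⟨b, ⟨h1, h2⟩, h3⟩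
    refine ⟨PP e S (sgl i b), ⟨(mn_iff e S).2 ⟨i, b, rfl⟩, fun h6 => h1 (sgl_inj (PP_inj e S h6)).2,
      fun h6 => h2 ((cm_iff_of_ne e S h1.symm).1 h6)⟩, ?_⟩
    rintro Q' ⟨h4, h5, h6⟩
    obtain ⟨j, c, rfl⟩ := (mn_iff e S).1 h4
    have hij : i = j := by
      by_contra hij
      exact h6 (cm_of_ne e S hij a c)
    subst hij
    have hc : c ≠ a := by
      rintro rfl
      exact h5 rfl
    rw [h3 c ⟨hc, fun h7 => h6 ((cm_iff_of_ne e S hc.symm).2 h7)⟩]

variable [Fact p.Prime] (hN : ∀ g ∈ H, ∀ n ∈ N, g * n * g⁻¹ ∈ N)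

include hN

theorem Mn.cj {Q : Subgroup G} (hQ : Mn e S Q) {x : G} (hx : x ∈ BH H e S) : Mn e S (H284.cj x Q) := by
  obtain ⟨h1, h2, h3, h4⟩ := hQ
  have hB := BH_cj_B e S hN hx
  have hx' := inv_mem hx
  have hB' := BH_cj_B e S hN hx'
  have hNx : ∀ y ∈ BH H e S, H284.cj y N ≤ N := by
    rintro y hy _ ⟨z, hz, rfl⟩
    exact hN y ((mem_BH e S).1 hy).1 z hz
  refine ⟨fun h5 => h1 ?_, ?_, (H284.cj_mono h3).trans (hNx x hx), fun Q' h5 h6 => ?_⟩
  · rw [← hB] at h5
    have := congrArg (H284.cj x⁻¹) h5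
    rwa [H284.cj_inv_cj, H284.cj_inv_cj] at this
  · rw [← hB]
    exact H284.cj_mono h2
  · rcases h4 (H284.cj x⁻¹ Q') (by rw [← hB']; exact H284.cj_mono h5) (by
      have := H284.cj_mono (x := x⁻¹) h6
      rwa [H284.cj_inv_cj] at this) with h7 | h7
    · left
      have := congrArg (H284.cj x) h7
      rwa [H284.cj_cj_inv, hB] at this
    · right
      rw [← h7, H284.cj_cj_inv]

theorem qleaf_cj {Q : Subgroup G} (hQ : QLeaf e S Q) {x : G} (hx : x ∈ BH H e S) : QLeaf e S (H284.cj x Q) := by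
  obtain ⟨Q', ⟨h1, h2, h3⟩, h4⟩ := hQ
  refine ⟨H284.cj x Q', ⟨h1.cj e S hN hx, fun h5 => h2 ?_, fun h5 => h3 ?_⟩, ?_⟩
  · have := congrArg (H284.cj x⁻¹) h5
    rwa [H284.cj_inv_cj, H284.cj_inv_cj] at this
  · have := h5.cj x⁻¹
    rwa [H284.cj_inv_cj, H284.cj_inv_cj] at this
  · rintro Q'' ⟨h5, h6, h7⟩
    have h8 := h4 (H284.cj x⁻¹ Q'') ⟨h5.cj e S hN (inv_mem hx), fun h9 => h6 (by rw [← h9, H284.cj_cj_inv]), fun h9 => h7 (by
      have := h9.cj x
      rwa [H284.cj_cj_inv] at this)⟩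
    rw [← h8, H284.cj_cj_inv]

/-- **the leaves are an invariant type** -/
theorem inv_leaf : Inv H e S fun _ => {a | PLeaf S a} := by
  intro x hx
  have hB := BH_cj_B e S hN hx
  obtain ⟨L', hL'⟩ := PP_over e S (L := H284.cj x (PP e S fun _ => {a | PLeaf S a}))
    (by rw [← hB]; exact H284.cj_mono ((PP_le_iff e S).2 fun _ => Set.empty_subset _)) (by
      rintro _ ⟨z, hz, rfl⟩
      exact hN x ((mem_BH e S).1 hx).1 z (PP_le e S _ hz))
  rw [hL']
  congr 1
  funext i
  ext a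
  have h1 : a ∈ L' i ↔ PP e S (sgl i a) ≤ PP e S L' := by rw [PP_le_iff, sgl_subset_iff]
  obtain ⟨j, b, hb⟩ := (mn_iff e S).1 (((mn_iff e S).2 ⟨i, a, rfl⟩ : Mn e S (PP e S (sgl i a))).cj e S hN (inv_mem hx))
  have h2 : PP e S (sgl i a) ≤ PP e S L' ↔ PP e S (sgl j b) ≤ PP e S fun _ => {a | PLeaf S a} := by
    rw [← hL', ← hb]
    constructor
    · intro h3
      have := H284.cj_mono (x := x⁻¹) h3
      rwa [H284.cj_inv_cj] at this
    · intro h3
      have := H284.cj_mono (x := x) h3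
      rwa [H284.cj_cj_inv] at this
  rw [h1, h2, PP_le_iff, sgl_subset_iff]
  show PLeaf S b ↔ PLeaf S a
  rw [← qleaf_iff e S j b, ← qleaf_iff e S i a, ← hb]
  constructor
  · intro h3
    have := qleaf_cj e S hN h3 hx
    rwa [H284.cj_cj_inv] at this
  · intro h3
    exact qleaf_cj e S hN h3 (inv_mem hx)

end Std

/-! ### the theorem -/

section Main

variable {I W Y : Type*} [Fintype I] [DecidableEq I] [Group W] [Group Y] {M : CoxeterMatrix I}
  {cs : CoxeterSystem M W} {A : I → I → ℤ} {h : IsCartan M A} {p : ℕ} {T : Subgroup Y} {n : I → Y}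
  {X : (I → ℤ) → Subgroup Y}

theorem pleaf_iff [Finite W] [Finite Y] [Fact p.Prime] (R : RGD cs h p T n X) (hBT : BT cs h p T X)
    (hG : GG cs h T X = ⊤) (hX : RGD.Sup X {x | IsRoot cs h x} = ⊤) (hconn : Conn M) (a : I) :
    PLeaf (ofRGD R hBT hG hX hconn) a ↔ Leaf M a := by
  have h1 : ∀ b, (b ≠ a ∧ ¬ Cm ((ofRGD R hBT hG hX hconn).P {a}) ((ofRGD R hBT hG hX hconn).P {b})) ↔
      (b ≠ a ∧ M a b ≠ 2) := by
    intro b
    constructor
    · rintro ⟨h2, h3⟩
      exact ⟨h2, fun h4 => h3 ((cm_iff R h2.symm).2 h4)⟩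
    · rintro ⟨h2, h3⟩
      exact ⟨h2, fun h4 => h3 ((cm_iff R h2.symm).1 h4)⟩
  unfold PLeaf Leaf ExistsUnique
  simp only [h1]

/-- **relative rank at least two**: connected diagram with at least three nodes -/
theorem exists_inv [Finite W] [Finite Y] [Fact p.Prime] (R : RGD cs h p T n X) (hBT : BT cs h p T X)
    (hG : GG cs h T X = ⊤) (hX : RGD.Sup X {x | IsRoot cs h x} = ⊤) (hconn : Conn M) (h3 : 3 ≤ Fintype.card I)
    {G : Type*} [Group G] [Finite G] {H N : Subgroup G} {k : ℕ} (e : N ≃* (Fin k → Y))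
    (hN : ∀ g ∈ H, ∀ n ∈ N, g * n * g⁻¹ ∈ N) :
    ∃ K : Fin k → Set I, (∀ i, K i ≠ ∅) ∧ (∀ i, K i ≠ Set.univ) ∧ Inv H e (ofRGD R hBT hG hX hconn) K := by
  refine ⟨fun _ => {a | PLeaf (ofRGD R hBT hG hX hconn) a}, fun _ => ?_, fun _ => ?_, inv_leaf e _ hN⟩
  · obtain ⟨a, ha⟩ := exists_leaf (cs := cs) (h := h) hconn (by omega)
    intro h0
    have h1 : {a | PLeaf (ofRGD R hBT hG hX hconn) a} = (∅ : Set I) := h0
    have : a ∈ {a | PLeaf (ofRGD R hBT hG hX hconn) a} := (pleaf_iff R hBT hG hX hconn a).2 ha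
    rw [h1] at this
    exact this
  · obtain ⟨a, ha⟩ := not_all_leaf (M := M) hconn h3
    intro h0
    have h1 : {a | PLeaf (ofRGD R hBT hG hX hconn) a} = (Set.univ : Set I) := h0
    have : a ∈ {a | PLeaf (ofRGD R hBT hG hX hconn) a} := by rw [h1]; trivial
    exact ha ((pleaf_iff R hBT hG hX hconn a).1 this)

end Main

/-! ### the two point stabilisers -/

section Typ

variable {G Y : Type*} [Group G] [Finite G] [Group Y] [Finite Y] {H N M' : Subgroup G} {k : ℕ}
  (e : N ≃* (Fin k → Y)) {p : ℕ} {I : Type*} (S : PSys Y p I)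

open Cfsg.Agent.H209.EPX

/-- a core free maximal subgroup `P_L(H)` of `H` has `L ≠ ∅` as soon as there is an invariant type `K ≠ ∅, univ` -/
theorem type_ne_empty (hN : MinN N H) (hM : MX H N M') {L K : Fin k → Set I} (hML : M' = PH H e S L)
    (hMN : M' ⊓ N = PP e S L) [Fact p.Prime] [IsSimpleGroup Y] (hK : Inv H e S K) {i₀ : Fin k} (hK0 : K i₀ ≠ ∅)
    (hK1 : K i₀ ≠ Set.univ) : ∃ i, L i ≠ ∅ := by
  by_contra hcon
  push Not at hcon
  have hLe : L = fun _ => ∅ := funext hcon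
  subst hLe
  have h1 : M' ≤ PH H e S K := by
    rw [hML]
    exact (PH_le_iff e S hN.nrm hN.le hK).2 fun _ => Set.empty_subset _
  rcases hM.max (PH H e S K) h1 inf_le_left with h2 | h2
  · apply hK0
    have h3 := PH_inf e S hN.le K
    rw [h2, hMN] at h3
    exact (congrFun (PP_inj e S h3) i₀).symm
  · apply hK1
    have h3 := PH_inf e S hN.le K
    rw [h2, inf_eq_right.2 hN.le] at h3
    exact univ_of_PP e S h3.symm i₀

end Typ

end Cfsg.Agent.H515.EPO
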